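import Mathlib
import Cfsg.Agent.Lib.TwoLen.Comp
import Cfsg.Agent.Lib.PLen.DLen

/-!
The `2`-length of a solvable group is at most the derived length of a Sylow `2`-subgroup.
-/

set_option autoImplicit false

namespace CfsgLib.TwoLen

open Subgroup Cfsg CfsgLib.Core CfsgLib.HH CfsgLib.PLocal CfsgLib.PLen
open scoped commutatorElement Pointwise TensorProduct

universe u v

variable {Y : Type u} [Group Y]

/-- the iterated commutator `[D, T, T', T'', …]` -/
def gk : Subgroup Y → Subgroup Y → ℕ → Subgroup Y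
  | D, _, 0 => D
  | D, T, k + 1 => gk ⁅D, T⁆ ⁅T, T⁆ k

/-- the derived series of a subgroup -/
abbrev ds (T : Subgroup Y) (k : ℕ) : Subgroup Y := gk T T k

theorem gk_succ (k : ℕ) : ∀ D T : Subgroup Y, gk D T (k + 1) = ⁅gk D T k, ds T k⁆ := by
  induction k with
  | zero => exact fun _ _ => rfl
  | succ k ih => exact fun D T => ih _ _

theorem gk_mono {D D' : Subgroup Y} (h : D ≤ D') (T : Subgroup Y) (k : ℕ) :
    gk D T k ≤ gk D' T k := by
  induction k with
  | zero => exact h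
  | succ k ih => rw [gk_succ, gk_succ]; exact commutator_mono ih le_rfl

theorem map_gk {X : Type v} [Group X] (f : Y →* X) (k : ℕ) :
    ∀ D T : Subgroup Y, (gk D T k).map f = gk (D.map f) (T.map f) k := by
  induction k with
  | zero => exact fun _ _ => rfl
  | succ k ih => intro D T; rw [gk, gk, ih, map_commutator, map_commutator]

theorem mem_normalizer_gk (k : ℕ) {g : Y} : ∀ {D T : Subgroup Y}, g ∈ normalizer (D : Set Y) →
    g ∈ normalizer (T : Set Y) → g ∈ normalizer (gk D T k : Set Y) := by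
  induction k with
  | zero => exact fun h _ => h
  | succ k ih =>
    exact fun h1 h2 => ih (normalizer_inf_le_normalizer_commutator _ _ ⟨h1, h2⟩)
      (normalizer_inf_le_normalizer_commutator _ _ ⟨h2, h2⟩)

theorem ds_le (T : Subgroup Y) (k : ℕ) : ds T k ≤ T := by
  induction k with
  | zero => exact le_rfl
  | succ k ih => rw [ds, gk_succ]; exact commutator_le_of_le ih ih

theorem gk_le {D T : Subgroup Y} (h : T ≤ normalizer (D : Set Y)) (k : ℕ) : gk D T k ≤ D := by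
  induction k with
  | zero => exact le_rfl
  | succ k ih =>
    rw [gk_succ]
    exact (commutator_mono ih (ds_le T k)).trans (Coprime.commutator_le_of_le_normalizer h)

theorem ds_eq (T : Subgroup Y) (k : ℕ) : ds T k = (derivedSeries T k).map T.subtype := by
  induction k with
  | zero => rw [derivedSeries_zero, ← MonoidHom.range_eq_map, range_subtype]; rfl
  | succ k ih => rw [ds, gk_succ, derivedSeries_succ, map_commutator, ← ih]

theorem le_of_le_commutator_sup {L U C K : Subgroup Y} (hL : Group.IsNilpotent L) (hU : U ≤ L)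
    (hC : C ≤ L) (hK : L ≤ normalizer (K : Set Y)) (h : U ≤ ⁅U, C⁆ ⊔ K) : U ≤ K := by
  obtain ⟨n, hn⟩ := (isNilpotent_iff_lowerCentralSeries L).1 hL
  have h1 : ∀ m, L.lowerCentralSeries m ≤ L ∧
      L ≤ normalizer (L.lowerCentralSeries m : Set Y) := fun m => by
    induction m with
    | zero => exact ⟨le_rfl, le_normalizer⟩
    | succ m ih =>
      rw [Subgroup.lowerCentralSeries_succ]
      exact ⟨commutator_le_of_le ih.1 le_rfl, normalizer_commutator_ge_right _ _⟩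
  have h2 : ∀ m, U ≤ L.lowerCentralSeries m ⊔ K := fun m => by
    induction m with
    | zero => exact hU.trans le_sup_left
    | succ m ih =>
      refine h.trans (sup_le ((commutator_mono ih hC).trans (commutator_sup_left_le
        ((h1 m).1.trans ((le_inf (h1 _).2 hK).trans (normalizer_inf_le_normalizer_sup _ _)))
        (le_sup_right.trans le_normalizer) ?_ ?_)) le_sup_right)
      · rw [Subgroup.lowerCentralSeries_succ]
        exact le_sup_left
      · exact (Coprime.commutator_le_of_le_normalizer hK).trans le_sup_right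
  simpa [hn] using h2 n

section Rep

variable {F : Type*} [Field F] {V : Type v} [AddCommGroup V] [Module F V]

/-- the vectors `v` with `[v, T, T', …] ≤ U` -/
def ksp (ρ : Representation F Y V) (U : Submodule F V) : ℕ → Subgroup Y → Submodule F V
  | 0, _ => U
  | k + 1, T => ⨅ t ∈ T, (ksp ρ U k ⁅T, T⁆).comap (ρ t - 1)

variable {ρ : Representation F Y V} {U W : Submodule F V}

theorem mem_ksp_succ {k : ℕ} {T : Subgroup Y} {v : V} :
    v ∈ ksp ρ U (k + 1) T ↔ ∀ t ∈ T, ρ t v - v ∈ ksp ρ U k ⁅T, T⁆ := by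
  simp [ksp]

theorem ksp_map {F' V' : Type*} [Field F'] [AddCommGroup V'] [Module F' V']
    {σ : Representation F' Y V'} {U' : Submodule F' V'} (f : V →+ V')
    (hf : ∀ g v, f (ρ g v) = σ g (f v)) (hU : ∀ u ∈ U, f u ∈ U') (k : ℕ) :
    ∀ (T : Subgroup Y) (v : V), v ∈ ksp ρ U k T → f v ∈ ksp σ U' k T := by
  induction k with
  | zero => exact fun _ => hU
  | succ k ih =>
    intro T v hv
    rw [mem_ksp_succ] at hv ⊢
    exact fun t ht => by rw [← hf, ← map_sub]; exact ih _ _ (hv t ht)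

theorem ksp_comap {F' V' : Type*} [Field F'] [AddCommGroup V'] [Module F' V']
    {σ : Representation F' Y V'} {U' : Submodule F' V'} (f : V →+ V')
    (hf : ∀ g v, f (ρ g v) = σ g (f v)) (hU : ∀ u, f u ∈ U' → u ∈ U) (k : ℕ) :
    ∀ (T : Subgroup Y) (v : V), f v ∈ ksp σ U' k T → v ∈ ksp ρ U k T := by
  induction k with
  | zero => exact fun _ => hU
  | succ k ih =>
    intro T v hv
    rw [mem_ksp_succ] at hv ⊢
    exact fun t ht => ih _ _ (by rw [map_sub, hf]; exact hv t ht)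

theorem sub_mem_ksp {T : Subgroup Y} (i : ℕ) : ∀ e : ℕ, ksp ρ U (e + i) T = ⊤ →
    ∀ c ∈ ds T i, ∀ v, ρ c v - v ∈ ksp ρ U e (ds T i) := by
  induction i with
  | zero => exact fun e h c _ v => h.symm ▸ Submodule.mem_top
  | succ i ih =>
    intro e h
    have h1 := ih (e + 1) (by rwa [add_right_comm])
    let S : Subgroup Y :=
      { carrier := {g | ∀ v, ρ g v - v ∈ ksp ρ U e ⁅ds T i, ds T i⁆}
        one_mem' := fun v => by simp
        mul_mem' := fun {a b} ha hb v => by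
          have := add_mem (ha (ρ b v)) (hb v)
          rwa [sub_add_sub_cancel, ← Module.End.mul_apply, ← map_mul] at this
        inv_mem' := fun {a} ha v => by
          have := neg_mem (ha (ρ a⁻¹ v))
          rwa [ρ.self_inv_apply, neg_sub] at this }
    rw [ds, gk_succ]
    refine (commutator_le (H₃ := S)).2 fun a ha b hb v => ?_
    set w := ρ a⁻¹ (ρ b⁻¹ v) with hw
    have h2 := sub_mem (mem_ksp_succ.1 (h1 b hb w) a ha) (mem_ksp_succ.1 (h1 a ha w) b hb)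
    have h3 : ρ b (ρ a w) = v := by rw [hw, ρ.self_inv_apply, ρ.self_inv_apply]
    have h4 : ρ ⁅a, b⁆ v = ρ a (ρ b w) := by
      simp only [hw, commutatorElement_def, map_mul, Module.End.mul_apply]
    rw [map_sub, map_sub, h3] at h2
    rw [h4]
    convert h2 using 1
    abel

variable [FiniteDimensional F V] {r : ℕ} {R : Subgroup Y}

theorem ksp_split {U₀ U₁ : Submodule F V} (hd : Disjoint U₀ U₁) (k : ℕ) : ∀ T : Subgroup Y,
    T ≤ stab ρ U₀ → T ≤ stab ρ U₁ → ∀ u₀ ∈ U₀, ∀ u₁ ∈ U₁, u₁ - u₀ ∈ ksp ρ ⊥ k T →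
      u₀ ∈ ksp ρ ⊥ k T := by
  induction k with
  | zero =>
    intro T _ _ u₀ h₀ u₁ h₁ h
    have h2 : u₁ = u₀ := sub_eq_zero.1 h
    exact Submodule.disjoint_def.1 hd u₀ h₀ (h2 ▸ h₁)
  | succ k ih =>
    intro T hT₀ hT₁ u₀ h₀ u₁ h₁ h
    rw [mem_ksp_succ] at h ⊢
    have h2 : ⁅T, T⁆ ≤ T := commutator_le_of_le le_rfl le_rfl
    refine fun t ht => ih _ (h2.trans hT₀) (h2.trans hT₁) _ (sub_mem (hT₀ ht _ h₀) h₀) _
      (sub_mem (hT₁ ht _ h₁) h₁) ?_
    convert h t ht using 1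
    rw [map_sub]
    abel

theorem IsComp.le_ksp [Finite Y] (h : IsComp ρ R W) [R.Normal] (e i : ℕ) : ∀ {T : Subgroup Y},
    IsPGroup 2 T → W ≤ ksp ρ ⊥ (e + i + 1) T → ¬ ds T i ≤ stab ρ W →
      W ≤ ksp ρ ⊥ e (ds T (i + 1)) := by
  have key : ∀ (k : ℕ) {T : Subgroup Y}, IsPGroup 2 T → W ≤ ksp ρ ⊥ (k + 1) T → ¬ T ≤ stab ρ W →
      W ≤ ksp ρ ⊥ k ⁅T, T⁆ := fun k T hT h1 h2 =>
    h.le_of_not_le hT.isNilpotent h2 (fun _ _ h3 h4 hd => ksp_split hd k _ h3 h4)
      fun t ht v hv => mem_ksp_succ.1 (h1 hv) t ht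
  induction i with
  | zero => exact key e
  | succ i ih =>
    intro T hT h1 h2
    exact ih (hT.to_le (commutator_le_of_le le_rfl le_rfl))
      (key _ hT h1 fun h3 => h2 ((ds_le T _).trans h3)) h2

theorem fixr_le_kern [Finite Y] [R.Normal] (h : Homog ρ W R) : fixr ρ W ≤ kern ρ W R := by
  intro g hg
  have h1 : ∀ a ∈ fixr ρ W, ∀ x ∈ R, ⁅a, x⁆ ∈ fixr ρ W := fun a ha x hx => by
    rw [commutatorElement_def, mul_assoc, mul_assoc, ← mul_assoc x]
    exact mul_mem ha ((mem_normalizer_iff.1 (stab_le_normalizer_fixr (h.le hx)) _).1 (inv_mem ha))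
  refine (mem_kern (fixr_le_stab hg) (le_normalizer_of_normal (mem_top g))).2 fun x hx =>
    ⟨PGroup.commutatorElement_mem_of_right g hx, le_normalizer (h1 g hg x hx), h1 _ (h1 g hg x hx)⟩

omit [FiniteDimensional F V] in
theorem nrm_step [Finite Y] [CharP F 2] (ρ : Representation F Y V) {E B K : Subgroup Y}
    (hE : ∀ d ∈ E, d ^ 2 = 1) (hB : B ≤ E) (hK : ∀ d ∈ B, d ∈ K → d = 1) {c : Y} (hc : c ∈ E)
    (hcB : ∀ b ∈ B, b * c ∉ K) : (∀ d, d ∈ B ⊔ zpowers c ↔ d ∈ B ∨ c⁻¹ * d ∈ B) ∧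
      (∀ d ∈ B ⊔ zpowers c, d ∈ K → d = 1) ∧
      ∀ v, nrm ρ (B ⊔ zpowers c) v = nrm ρ B (ρ c v - v) := by
  have hcm := isMulCommutative_of_sq hE
  have h1 : ∀ d, d ∈ B ⊔ zpowers c ↔ d ∈ B ∨ c⁻¹ * d ∈ B := fun d => by
    refine ⟨fun hd => ?_, fun hd => hd.elim mem_sup_left fun h => by
      simpa using mul_mem (mem_sup_right (S := B) (mem_zpowers c)) (mem_sup_left h)⟩
    obtain ⟨b, hb, z, ⟨k, rfl⟩, rfl⟩ := (mem_sup_of_le_normalizer_left (zpowers_le_of_mem
      (centralizer_le_normalizer _ fun b hb => hcm b (hB hb) c hc))).1 hd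
    have h2 : c ^ (2 : ℤ) = 1 := by exact_mod_cast hE c hc
    obtain ⟨j, rfl | rfl⟩ := Int.even_or_odd' k
    · left
      simpa [zpow_mul, h2] using hb
    · right
      simp only [zpow_add, zpow_mul, h2, one_zpow, one_mul, zpow_one]
      rwa [hcm b (hB hb) c hc, inv_mul_cancel_left]
  refine ⟨h1, fun d hd hdK => ((h1 d).1 hd).elim (fun h => hK d h hdK) fun h => ?_, fun v => ?_⟩
  · refine (hcB _ h ?_).elim
    rwa [hcm _ (hB h) c hc, mul_inv_cancel_left]
  · rw [nrm_eq (fun h => hcB _ (inv_mem h) (by simp)) h1]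
    have h2 : (1 + ρ c) * nrm ρ B = nrm ρ B * (1 + ρ c) := by
      rw [nrm, Finset.mul_sum, Finset.sum_mul]
      refine Finset.sum_congr rfl fun d hd => ?_
      rw [add_mul, mul_add, ← map_mul, ← map_mul, hcm c hc d (hB (by simpa using hd)), one_mul,
        mul_one]
    rw [h2, Module.End.mul_apply, LinearMap.add_apply, Module.End.one_apply, sub_eq_add_neg,
      add_comm]
    congr 2
    rw [eq_neg_iff_add_eq_zero, ← two_smul F, show (2 : F) = 0 from CharTwo.two_eq_zero, zero_smul]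

theorem exists_two_ne_zero [IsAlgClosed F] [CharP F 2] [Finite Y] (hR : Good r R)
    (h : IsComp ρ R W) {E : Subgroup Y} (hE : ∀ d ∈ E, d ^ 2 = 1) (hEW : E ≤ stab ρ W) {a b : Y}
    (ha : a ∈ E) (hb : b ∈ E) (h1 : a ∉ kern ρ W R) (h2 : b ∉ kern ρ W R)
    (h3 : a * b ∉ kern ρ W R) : ∃ v ∈ W, ρ a (ρ b v - v) - (ρ b v - v) ≠ 0 := by
  have := hR.normal
  obtain ⟨e1, e2, e3⟩ := nrm_step ρ (K := kern ρ W R) hE bot_le (fun d hd _ => mem_bot.1 hd) ha
    fun d hd => by rwa [mem_bot.1 hd, one_mul]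
  have h4 : ⊥ ⊔ zpowers a ≤ E := sup_le bot_le (zpowers_le_of_mem ha)
  obtain ⟨-, e5, e6⟩ := nrm_step ρ hE h4 e2 hb fun d hd => ((e1 d).1 hd).elim
    (fun h => by rwa [mem_bot.1 h, one_mul]) fun h => by rwa [← inv_mul_eq_one.1 (mem_bot.1 h)]
  have h5 := sup_le h4 (zpowers_le_of_mem hb)
  obtain ⟨v, hv, h6⟩ := exists_nrm_ne_zero _ rfl (h.homog hR) (fun _ => hR.odd_orderOf)
    (h5.trans hEW) le_normalizer_of_normal (fun d hd => hE d (h5 hd)) e5
  exact ⟨v, hv, by rwa [e6, e3, nrm_bot] at h6⟩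

section Local

variable [IsAlgClosed F] [CharP F 2] [Finite Y] [Group.IsSolvable Y] {l : ℕ} {T : Subgroup Y}

omit [FiniteDimensional F V] [IsAlgClosed F] [CharP F 2] [Finite Y] [Group.IsSolvable Y] in
theorem ds_quad (h : ksp ρ ⊥ (l + 2) T = ⊤) {a b : Y} (ha : a ∈ ds T (l + 1))
    (hb : b ∈ ds T (l + 1)) (v : V) : ρ a (ρ b v - v) - (ρ b v - v) = 0 :=
  mem_ksp_succ.1 (sub_mem_ksp (l + 1) 1 (by rwa [add_comm]) b hb v) a ha

omit [FiniteDimensional F V] [IsAlgClosed F] [Finite Y] [Group.IsSolvable Y] in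
theorem ds_sq (hρ : ∀ y, ρ y = 1 → y = 1) (h : ksp ρ ⊥ (l + 2) T = ⊤) {a : Y}
    (ha : a ∈ ds T (l + 1)) : a ^ 2 = 1 :=
  sq_eq_one_of_quad hρ fun v => sub_eq_zero.1 (ds_quad h ha ha v)

omit [Group.IsSolvable Y] in
theorem ds_le_cz (hρ : ∀ y, ρ y = 1 → y = 1) (hT : IsPGroup 2 T) (h : ksp ρ ⊥ (l + 2) T = ⊤) :
    ds T (l + 1) ≤ cz Y := fun a ha => mem_cz.2 fun r R hR => mem_centralizer_ctr hρ hR
  fun W hW => by
    have := hR.normal
    by_contra h1
    exact hW.1 (le_bot_iff.1 (hW.le_ksp 0 (l + 1) hT (by rw [zero_add, h]; exact le_top)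
      fun h2 => h1 (h2 ha)))

theorem ds_le_centralizer (hO : pCore 2 Y = ⊥) (hρ : ∀ y, ρ y = 1 → y = 1) (hT : IsPGroup 2 T)
    (h : ksp ρ ⊥ (l + 2) T = ⊤) :
    ds T (l + 1) ≤ centralizer ((T ⊓ cz Y : Subgroup Y) : Set Y) := by
  intro a ha u hu
  have hua : u * a * u⁻¹ ∈ ds T (l + 1) :=
    (mem_normalizer_iff.1 (mem_normalizer_gk _ (le_normalizer hu.1) (le_normalizer hu.1)) a).1 ha
  have hc : ⁅u, a⁆ ∈ ds T (l + 1) := mul_mem hua (inv_mem ha)
  rw [← commutatorElement_eq_one_iff_mul_comm]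
  refine eq_one_of_forall_kern hO hρ ⟨1, ds_sq hρ h hc⟩ fun r R W hR hW => ?_
  have := hR.normal
  have huK := mem_normalizer_iff.1 (mem_normalizer_kern (hW.cz_le hR hu.2)
    (le_normalizer_of_normal (H := R) (mem_top u))) a
  by_cases haK : a ∈ kern ρ W R
  · exact mul_mem (huK.1 haK) (inv_mem haK)
  by_contra hcK
  obtain ⟨v, -, hv⟩ := exists_two_ne_zero hR hW (fun d hd => ds_sq hρ h hd)
    ((ds_le_cz hρ hT h).trans (hW.cz_le hR)) hc ha hcK haK fun h1 => haK (huK.2 (by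
      simpa [commutatorElement_def] using h1))
  exact hv (ds_quad h hc ha v)

theorem gk_eq_bot (hO : pCore 2 Y = ⊥) (hρ : ∀ y, ρ y = 1 → y = 1) (hT : IsPGroup 2 T)
    (h : ksp ρ ⊥ (l + 2) T = ⊤) {E : Subgroup Y} (hE : ∀ d ∈ E, d ^ 2 = 1) (hET : E ≤ T)
    (hTE : T ≤ normalizer (E : Set Y)) (hEc : E ≤ cz Y) : gk E T (l + 1) = ⊥ := by
  rw [gk_succ, eq_bot_iff, commutator_le]
  intro b₁ hb₁ b₂ hb₂
  set x := ⁅b₁, b₂⁆ with hx
  have hx1 : x ∈ gk E T (l + 1) := gk_succ l E T ▸ commutator_mem_commutator hb₁ hb₂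
  have hxE := gk_le hTE _ hx1
  have hxA := gk_mono hET T _ hx1
  have hb₁E := gk_le hTE _ hb₁
  refine eq_one_of_forall_kern hO hρ ⟨1, hE x hxE⟩ fun r R W hR hW => ?_
  have := hR.normal
  set K := kern ρ W R with hK
  have hWK : stab ρ W ≤ normalizer (K : Set Y) := fun g hg =>
    mem_normalizer_kern hg (le_normalizer_of_normal (mem_top g))
  have hEW := hEc.trans (hW.cz_le hR)
  by_contra hxK
  have hBW : ds T l ≤ stab ρ W := by
    by_contra h1
    refine hxK (fixr_le_kern (hW.homog hR) fun v hv => sub_eq_zero.1 ?_)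
    exact mem_ksp_succ.1 (hW.le_ksp 1 l hT (by rw [add_comm 1, h]; exact le_top) h1 hv) x hxA
  have key : ¬ W ≤ ksp ρ ⊥ 2 (ds T l) := fun h1 => by
    have h2 := mem_normalizer_iff.1 (hWK (hBW hb₂)) b₁⁻¹
    have h3 : b₁ ∉ K := fun h3 => hxK (by
      simpa [hx, commutatorElement_def, mul_assoc] using mul_mem h3 (h2.1 (inv_mem h3)))
    obtain ⟨v, hv, h4⟩ := exists_two_ne_zero hR hW hE hEW hxE hb₁E hxK h3 fun h4 => h3 (by
      rw [isMulCommutative_of_sq hE x hxE b₁ hb₁E, hx, commutatorElement_def,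
        show b₁ * (b₁ * b₂ * b₁⁻¹ * b₂⁻¹) = b₁ ^ 2 * (b₂ * b₁⁻¹ * b₂⁻¹) by rw [pow_two]; group,
        hE b₁ hb₁E, one_mul] at h4
      exact inv_mem_iff.1 (h2.2 h4))
    exact h4 (mem_ksp_succ.1 (mem_ksp_succ.1 (h1 hv) b₁ (gk_mono hET T _ hb₁)) x
      (gk_succ l T T ▸ hxA))
  cases l with
  | zero => exact key (h.symm ▸ le_top)
  | succ m =>
  have hCW : ds T m ≤ stab ρ W := by
    by_contra h1
    exact key (hW.le_ksp 2 m hT (by rw [add_comm 2, add_right_comm, h]; exact le_top) h1)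
  set C := ds T m with hC
  set D := gk E T m with hD
  have hB : ds T (m + 1) = ⁅C, C⁆ := gk_succ m T T
  have hCT : C ≤ T := ds_le T m
  have hCD : C ≤ normalizer (D : Set Y) := fun g hg =>
    mem_normalizer_gk m (hTE (hCT hg)) (le_normalizer (hCT hg))
  have hDE : D ≤ E := gk_le hTE m
  have hDC : D ≤ C := gk_mono hET T m
  rw [gk_succ, ← hC, ← hD] at hb₁
  have hD1 : ⁅D, C⁆ ≤ D := Coprime.commutator_le_of_le_normalizer hCD
  have hD2 : ⁅⁅D, C⁆, C⁆ ≤ ⁅D, C⁆ := commutator_mono hD1 le_rfl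
  have hD3 : ⁅⁅⁅D, C⁆, C⁆, C⁆ ≤ ⁅⁅D, C⁆, C⁆ := commutator_mono hD2 le_rfl
  have hx2 : x ∈ ⁅⁅D, C⁆, C⁆ :=
    commutator_mem_commutator hb₁ (commutator_le_of_le le_rfl le_rfl (hB ▸ hb₂))
  have hstrict : ∀ U : Subgroup Y, U ≤ D → U ≤ ⁅U, C⁆ ⊔ K → U ≤ K := fun U hU =>
    le_of_le_commutator_sup (hT.to_le hCT).isNilpotent (hU.trans hDC) le_rfl (hCW.trans hWK)
  have hCK := hCW.trans hWK
  have h3 : ¬ ⁅⁅⁅D, C⁆, C⁆, C⁆ ≤ K := fun h3 => hxK (by
    have := three_subgroups_of_le_normalizer hCK hCK ((hD1.trans hDC).trans hCK)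
      (by rwa [commutator_comm C]) h3
    rw [commutator_comm, ← hB] at this
    exact this (commutator_mem_commutator hb₁ hb₂))
  obtain ⟨e1, e2, e3⟩ := nrm_step ρ (K := K) hE bot_le (fun d hd _ => mem_bot.1 hd) hxE
    fun d hd => by rwa [mem_bot.1 hd, one_mul]
  have hsup : ∀ {U : Subgroup Y} {b c : Y}, b ∈ U → b * c ∈ K → c ∈ U ⊔ K := fun hb hc => by
    simpa using mul_mem (mem_sup_left (T := K) (inv_mem hb)) (mem_sup_right hc)
  obtain ⟨b, hb, hb'⟩ : ∃ b ∈ ⁅⁅D, C⁆, C⁆, ∀ d ∈ ⊥ ⊔ zpowers x, d * b ∉ K := by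
    by_contra hcon
    push Not at hcon
    obtain ⟨y, hy, hyK⟩ := SetLike.not_le_iff_exists.1 h3
    obtain ⟨d, hd, hdy⟩ := hcon y (hD3 hy)
    have h4 : x ∈ ⁅⁅⁅D, C⁆, C⁆, C⁆ ⊔ K := ((e1 d).1 hd).elim
      (fun h => (hyK (by rwa [mem_bot.1 h, one_mul] at hdy)).elim) fun h => by
        rw [← inv_mul_eq_one.1 (mem_bot.1 h)] at hdy
        simpa using mul_mem (mem_sup_right hdy) (mem_sup_left (T := K) (inv_mem hy))
    refine hxK (hstrict _ (hD2.trans hD1) (fun z hz => ?_) hx2)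
    obtain ⟨d, hd, hdz⟩ := hcon z hz
    exact sup_le (sup_le bot_le (zpowers_le_of_mem h4)) le_sup_right (hsup hd hdz)
  obtain ⟨c₁, hc₁, hc₁'⟩ := SetLike.not_le_iff_exists.1 fun h4 => hxK (hstrict _ hD1 h4 (hD2 hx2))
  obtain ⟨c₂, hc₂, hc₂'⟩ := SetLike.not_le_iff_exists.1
    fun h4 => hxK (hstrict _ le_rfl h4 (hD1 (hD2 hx2)))
  have h4 : ⊥ ⊔ zpowers x ≤ ⁅⁅D, C⁆, C⁆ := sup_le bot_le (zpowers_le_of_mem hx2)
  have h5 := sup_le h4 (zpowers_le_of_mem hb)
  have h6 := sup_le (h5.trans hD2) (zpowers_le_of_mem hc₁)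
  have h7 := (sup_le (h6.trans hD1) (zpowers_le_of_mem hc₂)).trans hDE
  obtain ⟨-, e5, e6⟩ := nrm_step ρ hE (h4.trans ((hD2.trans hD1).trans hDE)) e2
    (hDE (hD1 (hD2 hb))) hb'
  obtain ⟨-, e7, e8⟩ := nrm_step ρ hE (h5.trans ((hD2.trans hD1).trans hDE)) e5 (hDE (hD1 hc₁))
    fun d hd h8 => hc₁' (hsup (h5 hd) h8)
  obtain ⟨-, e9, e10⟩ := nrm_step ρ hE (h6.trans (hD1.trans hDE)) e7 (hDE hc₂)
    fun d hd h8 => hc₂' (hsup (h6 hd) h8)
  obtain ⟨v, -, h8⟩ := exists_nrm_ne_zero _ rfl (hW.homog hR) (fun _ => hR.odd_orderOf)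
    (h7.trans hEW) le_normalizer_of_normal (fun d hd => hE d (h7 hd)) e9
  rw [e10, e8, e6, e3, nrm_bot] at h8
  refine h8 (mem_ksp_succ.1 (mem_ksp_succ.1 (mem_ksp_succ.1
    (sub_mem_ksp m 3 (by rwa [add_comm]) c₂ (hDC hc₂) v) c₁ (hDC (hD1 hc₁))) b
    (commutator_mono hDC le_rfl (hD2 hb))) x ?_)
  rw [← hB, ← gk_succ]
  exact hxA

theorem exists_chain (hO : pCore 2 Y = ⊥) (hρ : ∀ y, ρ y = 1 → y = 1)
    (h : ∀ T : Subgroup Y, IsPGroup 2 T → ksp ρ ⊥ (l + 2) T = ⊤) {X : Type u} [Group X]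
    {f : Y →* X} {P : Subgroup Y} (hf : Red f P) : ∃ A : Subgroup X, A.Normal ∧ A ≤ pCore 2 X ∧
      ∀ T : Subgroup X, IsPGroup 2 T → pCore 2 X ≤ T →
        ds T (l + 1) ≤ A ∧ gk A T (l + 1) = ⊥ := by
  have := cz_normal (Y := Y)
  set 𝒯 : Set (Subgroup Y) := {T | IsPGroup 2 T ∧ P ≤ T ∧ T ≤ normalizer (P : Set Y)} with h𝒯
  set E := ⨆ T ∈ 𝒯, ds T (l + 1) with hE
  have hE1 : E ≤ cz Y := iSup₂_le fun T hT => ds_le_cz hρ hT.1 (h T hT.1)
  have hE2 : E ≤ normalizer (P : Set Y) := iSup₂_le fun T hT => (ds_le T _).trans hT.2.2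
  have hE3 : normalizer (P : Set Y) ≤ normalizer (E : Set Y) := fun g hg => by
    refine mem_normalizer_of_forall_conj_mem fun x hx => ?_
    have : E.map (MulAut.conj g).toMonoidHom ≤ E := by
      simp only [hE, Subgroup.map_iSup, iSup_le_iff]
      intro T hT
      rw [map_gk]
      refine le_biSup (fun T => ds T (l + 1)) ⟨hT.1.map _, ?_, ?_⟩
      · rw [← mem_normalizer_iff_map_conj_eq'.1 hg]
        exact map_mono hT.2.1
      · rintro _ ⟨t, ht, rfl⟩
        exact mul_mem (mul_mem hg (hT.2.2 ht)) (inv_mem hg)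
    exact this (mem_map_of_mem _ hx)
  have hE4 : E ≤ centralizer ((P ⊓ cz Y : Subgroup Y) : Set Y) := iSup₂_le fun T hT =>
    (ds_le_centralizer hO hρ hT.1 (h T hT.1)).trans
      (centralizer_le (inf_le_inf_right (cz Y) hT.2.1))
  have hE5 := hf.map_le hE1 hE2 hE3 fun x hx _ => hE4 hx
  have hE6 : E ≤ P := iSup₂_le fun T hT t ht => hf.syl T hT.1 hT.2.1 t (ds_le T _ ht)
    (hE5 (mem_map_of_mem f (le_biSup (fun T => ds T (l + 1)) hT ht)))
  have hE7 : ∀ d ∈ E, d ^ 2 = 1 := by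
    have : IsMulCommutative E :=
      ⟨⟨fun a b => Subtype.ext (hE4 b.2 a (mem_inf.2 ⟨hE6 a.2, hE1 a.2⟩))⟩⟩
    have h1 : E ≤ omegaOne 2 E := iSup₂_le fun T hT t ht => Core.mem_omegaOne
      (le_biSup (fun T => ds T (l + 1)) hT ht) (ds_sq hρ (h T hT.1) ht)
    exact fun d hd => pow_eq_one_of_mem_omegaOne (h1 hd)
  refine ⟨E.map f, hf.normal_map hE3, hE5, fun T hT hle => ?_⟩
  obtain ⟨S, hS, hPS, hSP, rfl⟩ := hf.exists_lift hT hle
  rw [ds, ← map_gk, ← map_gk, gk_eq_bot hO hρ hS (h S hS) hE7 (hE6.trans hPS) (hSP.trans hE3) hE1,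
    Subgroup.map_bot]
  exact ⟨map_mono (le_biSup (fun T => ds T (l + 1)) ⟨hS, hPS, hSP⟩), rfl⟩

end Local

end Rep

theorem mem_ksp_quotRep {X : Type u} [Group X] {V : Subgroup X} [V.Normal]
    (hV : IsElementaryAbelian 2 V) (A : Subgroup X) (k : ℕ) : ∀ (D T : Subgroup X), gk D T k ≤ A →
      ∀ v : ElemMod hV, v.toG ∈ D →
        v ∈ ksp (quotRep hV) (ElemMod.sub hV A) k (T.map (QuotientGroup.mk' V)) := by
  induction k with
  | zero => exact fun D T h v hv => ElemMod.mem_sub.2 (h hv)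
  | succ k ih =>
    intro D T h v hv
    rw [mem_ksp_succ, ← map_commutator]
    rintro _ ⟨t, ht, rfl⟩
    refine ih _ _ h _ ?_
    rw [ElemMod.toG_sub, commutator_comm]
    exact commutator_mem_commutator ht hv

theorem sub_bot {X : Type u} [Group X] {V : Subgroup X} (hV : IsElementaryAbelian 2 V) :
    ElemMod.sub hV ⊥ = ⊥ :=
  (Submodule.eq_bot_iff _).2 fun _ hv => ElemMod.toG_eq_one.1 (ElemMod.mem_sub.1 hv)

theorem isPGroup_comap_mk' {X : Type u} [Group X] {T : Subgroup (X ⧸ pCore 2 X)}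
    (hT : IsPGroup 2 T) : IsPGroup 2 (T.comap (QuotientGroup.mk' (pCore 2 X))) :=
  hT.comap_of_ker_isPGroup _ (by rw [QuotientGroup.ker_mk']; exact Core.isPGroup_pCore 2 X)

theorem le_comap_mk' {X : Type u} [Group X] (V : Subgroup X) [V.Normal] (T : Subgroup (X ⧸ V)) :
    V ≤ T.comap (QuotientGroup.mk' V) := fun v hv => by
  rw [mem_comap, QuotientGroup.mk'_apply, (QuotientGroup.eq_one_iff v).2 hv]
  exact one_mem _

theorem sub_invariant {X : Type u} [Group X] {V : Subgroup X} [V.Normal]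
    (hV : IsElementaryAbelian 2 V) (A : Subgroup X) [hA : A.Normal] (g : X ⧸ V) :
    ElemMod.sub hV A ≤ (ElemMod.sub hV A).comap (quotRep hV g) := by
  obtain ⟨g, rfl⟩ := QuotientGroup.mk_surjective g
  exact fun v hv => ElemMod.mem_sub.2 (hA.conj_mem _ (ElemMod.mem_sub.1 hv) g)

theorem plen_of_ksp (l : ℕ) : ∀ {Y : Type u} [Group Y] [Finite Y] [Group.IsSolvable Y]
    {V : Type u} [AddCommGroup V] [Module (ZMod 2) V] [FiniteDimensional (ZMod 2) V]
    (ρ : Representation (ZMod 2) Y V), pCore 2 Y = ⊥ → (∀ y, ρ y = 1 → y = 1) →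
    (∀ T : Subgroup Y, IsPGroup 2 T → ksp ρ ⊥ (l + 1) T = ⊤) → PLengthLE 2 l Y := by
  induction l with
  | zero =>
    intro Y _ _ _ V _ _ _ ρ _ hρ h
    refine plen_zero_iff.2 (PExp.coprime fun x hx => ?_)
    rw [pow_zero, pow_one]
    refine hρ x (LinearMap.ext fun v => sub_eq_zero.1 ?_)
    exact mem_ksp_succ.1 ((h _ (isPGroup_zpowers_iff.2 hx)).symm ▸ Submodule.mem_top) x
      (mem_zpowers x)
  | succ l ih =>
    intro Y _ _ _ V _ _ _ ρ hO hρ h
    obtain ⟨X, _, _, f, P, hf⟩ := exists_red Y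
    obtain ⟨A, hA, -, h1⟩ := exists_chain (ρ := baseChangeRep (AlgebraicClosure (ZMod 2)) ρ) (l := l)
      hO (fun y hy => hρ y ((baseChangeRep_eq_one_iff _ ρ).1 hy)) (fun T hT => by
        rw [eq_top_iff]
        rintro w -
        induction w using TensorProduct.induction_on with
        | zero => exact zero_mem _
        | add x y hx hy => exact add_mem hx hy
        | tmul c v =>
          rw [← mul_one c, ← smul_eq_mul, ← TensorProduct.smul_tmul']
          exact Submodule.smul_mem _ c (ksp_map (U := ⊥)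
            (TensorProduct.mk (ZMod 2) (AlgebraicClosure (ZMod 2)) V 1).toAddMonoidHom
            (fun g v => rfl) (fun u hu => by rw [(Submodule.mem_bot _).1 hu, map_zero]; exact zero_mem _)
            _ T v ((h T hT).symm ▸ Submodule.mem_top))) hf
    have := Group.isSolvable_of_surjective hf.surj
    have := elem_finiteDimensional hf.elem
    have hU := sub_invariant hf.elem A
    refine plen_succ_of_reduction hf.surj hf.comap_eq (ih (prodRep _ _ hU) PSolv.pCore_quotient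
      (prodRep_faithful PSolv.pCore_quotient (quotRep_faithful hf.elem hf.cent) hU) fun T hT => ?_)
    obtain ⟨h2, h3⟩ := h1 _ (isPGroup_comap_mk' hT) (le_comap_mk' _ T)
    have h4 := mem_ksp_quotRep hf.elem A (l + 1) _ _
      ((gk_mono (le_comap_mk' _ T) _ _).trans h2)
    have h5 := mem_ksp_quotRep hf.elem ⊥ (l + 1) _ _ h3.le
    rw [map_comap_eq_self_of_surjective (QuotientGroup.mk'_surjective _)] at h4 h5
    rw [sub_bot] at h5
    rw [eq_top_iff]
    rintro ⟨u, w⟩ -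
    obtain ⟨v, rfl⟩ := (ElemMod.sub hf.elem A).mkQ_surjective w
    have h6 : (u, (ElemMod.sub hf.elem A).mkQ v) = (u, 0) + (0, (ElemMod.sub hf.elem A).mkQ v) := by
      simp
    rw [h6]
    refine add_mem (ksp_map (ρ := (quotRep hf.elem).subrepresentation _ hU) (U := ⊥)
      (σ := prodRep _ _ hU) (U' := ⊥)
      (LinearMap.inl (ZMod 2) _ _).toAddMonoidHom 
      (fun g v => Prod.ext rfl (map_zero ((quotRep hf.elem).quotient _ hU g)).symm)
      (fun u hu => by rw [(Submodule.mem_bot _).1 hu, map_zero]; exact zero_mem _) _ T u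
      (ksp_comap (U' := ⊥) (ElemMod.sub hf.elem A).subtype.toAddMonoidHom (fun g v => rfl)
        (fun u hu => (Submodule.mem_bot _).2 (Subtype.ext ((Submodule.mem_bot _).1 hu))) _ T u
        (h5 _ (ElemMod.mem_sub.1 u.2))))
      (ksp_map (σ := prodRep _ _ hU) (U' := ⊥)
        ((LinearMap.inr (ZMod 2) _ _).comp (ElemMod.sub hf.elem A).mkQ).toAddMonoidHom
        (fun g v => Prod.ext (map_zero ((quotRep hf.elem).subrepresentation _ hU g)).symm rfl)
        (fun u hu => Prod.ext rfl ((Submodule.Quotient.mk_eq_zero _).2 hu)) _ T v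
        (h4 v v.toG_mem))

theorem plen_of_dlen {G : Type u} [Group G] [Finite G] [Group.IsSolvable G] {d : ℕ}
    (h : DLen 2 d G) : PLengthLE 2 d G := by
  cases d with
  | zero => exact plen_zero_iff.2 h.coprime
  | succ l =>
    obtain ⟨X, _, _, f, P, hf⟩ := exists_red G
    have := Group.isSolvable_of_surjective hf.surj
    have := elem_finiteDimensional hf.elem
    refine plen_succ_of_reduction hf.surj hf.comap_eq (plen_of_ksp l (quotRep hf.elem)
      PSolv.pCore_quotient (quotRep_faithful hf.elem hf.cent) fun T hT => ?_)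
    have h1 := mem_ksp_quotRep hf.elem ⊥ (l + 1) _ _ ((gk_mono (le_comap_mk' _ T) _ _).trans (by
      rw [← ds, ds_eq, h.of_surjective hf.surj _ (isPGroup_comap_mk' hT), Subgroup.map_bot]))
    rw [map_comap_eq_self_of_surjective (QuotientGroup.mk'_surjective _), sub_bot] at h1
    exact eq_top_iff.2 fun v _ => h1 v v.toG_mem

end CfsgLib.TwoLen
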