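import Mathlib
import Cfsg.Agent.Lib.TwoLen.Plane

/-!
`2`-groups generated by reflections in planes.
-/

set_option autoImplicit false

namespace CfsgLib.TwoLen

open Subgroup CfsgLib.Core

variable {G M C : Type*} [Group G] [AddCommGroup M] [AddCommGroup C] [DistribMulAction G M]
  {r : ℕ} {β : M →+ M →+ C} {t σ : G} [Finite M]

namespace Sympl

theorem fix_of_perp (hS : Sympl r G β) (h : Refl M r t) (hσ : Refl M r σ)
    (hp : Perp M t (σ * t * σ⁻¹)) {x : M} (h1 : t • x = x) (h2 : (σ * t * σ⁻¹) • x = x) :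
    σ • x = x := hS.fix_of_orth hσ.1 fun n hn => by
  obtain ⟨u, hu, rfl⟩ := hS.diag h hσ (fun _ hm => hm) hp hn
  rw [map_sub, hS.orth h1 hu, hS.orth h2 (neg_conj hu σ), sub_zero]

theorem partner_unique (hS : Sympl r G β) (h : Refl M r t) (hσ : Refl M r σ) {τ : G}
    (hτ : Refl M r τ) (hk : ∃ k : ℕ, (σ * τ) ^ 2 ^ k = 1) (h1 : Perp M t (σ * t * σ⁻¹))
    (h2 : Perp M t (τ * t * τ⁻¹))
    (h3 : σ * t * σ⁻¹ = τ * t * τ⁻¹ ∨ Perp M (σ * t * σ⁻¹) (τ * t * τ⁻¹)) :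
    σ * t * σ⁻¹ = τ * t * τ⁻¹ := by
  refine h3.elim id fun h3 => (hS.not_perp h ?_).elim
  have h4 := hS.comm_of_fix (h.conj τ) fun m hm => hS.fix_of_perp h hσ h1
    (hS.perp_symm h.1 h2 m hm) (hS.perp_symm (h.conj σ).1 h3 m hm)
  have h5 := hS.comm_of_fix (h.conj σ) fun m hm => hS.fix_of_perp h hτ h2
    (hS.perp_symm h.1 h1 m hm) (h3 m hm)
  have h6 : σ * τ * t * (σ * τ)⁻¹ = τ * t * τ⁻¹ := by rw [← h4]; group
  have h7 : σ * τ * (τ * t * τ⁻¹) * (σ * τ)⁻¹ = σ * t * σ⁻¹ := by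
    rw [show σ * τ * (τ * t * τ⁻¹) * (σ * τ)⁻¹ = σ * (τ * τ) * t * (τ * τ)⁻¹ * σ⁻¹ by group, hτ.1]
    group
  have h8 : σ * τ * (σ * t * σ⁻¹) * (σ * τ)⁻¹ = t := by
    rw [show σ * τ * (σ * t * σ⁻¹) * (σ * τ)⁻¹ = σ * (τ * (σ * t * σ⁻¹) * τ⁻¹) * σ⁻¹ by group, h5,
      show σ * (σ * t * σ⁻¹) * σ⁻¹ = σ * σ * t * (σ * σ)⁻¹ by group, hσ.1]
    group
  generalize σ * τ = g at hk h6 h7 h8
  have h9 : g ^ 3 ∈ centralizer {t} := by
    rw [mem_centralizer_singleton_iff, ← mul_inv_eq_iff_eq_mul]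
    nth_rewrite 2 [← h8]
    rw [← h7, ← h6, pow_succ, pow_two]
    group
  obtain ⟨k, hk⟩ := hk
  obtain ⟨j, hj⟩ := exists_pow_eq_self_of_coprime (x := g) (n := 3)
    (Nat.Coprime.coprime_dvd_right (orderOf_dvd_of_pow_eq_one hk)
      (Nat.Coprime.pow_right k (by norm_num)))
  have h10 := mem_centralizer_singleton_iff.1 (hj ▸ pow_mem h9 j)
  rwa [← h6, h10, mul_inv_cancel_right] at h2

theorem no_eight (hS : Sympl 3 G β) (h : Refl M 3 t) {k : G} (hk : k * t * k⁻¹ = t)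
    (h4 : ∀ m : M, t • m = -m → k • k • k • k • m = -m) : False := by
  obtain ⟨x, hx0, hx⟩ := hS.exists_ne_zero h
  obtain ⟨n, hn⟩ := hS.line h hx ((ng M t).add_mem (neg_of_comm hk hx)
    (neg_of_comm (conj_inv_eq hk) hx)) hx0 (by
      rw [map_add, ← hS.inv k x (k⁻¹ • x), smul_inv_smul, hS.skew x, add_neg_cancel])
  have h1 : k • k • x = (n % 3) • k • x - x := by
    have := congrArg (k • ·) hn
    simp only [smul_add, smul_inv_smul] at this
    rw [eq_sub_iff_add_eq, this, smul_comm, ← Nat.div_add_mod n 3, add_smul, mul_smul, hS.tors,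
      zero_add, Nat.div_add_mod]
  have h2 := h4 x hx
  have h3 := hS.tors x
  have h5 := hS.tors (k • x)
  have key : ∀ c : M, k • x = c → (k • c = x ∨ c = x) → False := fun c hc e => by
    have e' : k • k • x = x := e.elim (hc ▸ id) fun e => by rw [hc, e, hc, e]
    rw [e', e'] at h2
    exact hx0 (hS.eq_zero_of_neg h3 h2)
  have hlt : n % 3 < 3 := Nat.mod_lt _ (by norm_num)
  generalize n % 3 = j at h1 hlt
  interval_cases j
  · rw [zero_smul, zero_sub] at h1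
    rw [h1, smul_neg, smul_neg, h1, neg_neg] at h2
    exact hx0 (hS.eq_zero_of_neg h3 h2)
  · rw [one_smul] at h1
    rw [h1, smul_sub, h1, sub_sub_cancel_left, smul_neg, neg_inj] at h2
    exact key x h2 (Or.inr rfl)
  · have h6 : k • k • k • x = x := by
      rw [h1, smul_sub, smul_comm k 2, h1]
      generalize k • x = w at h5 ⊢
      linear_combination (norm := module) h5 - h3
    rw [h6] at h2
    exact key _ h2 (Or.inl (by rw [smul_neg, h2, neg_neg]))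

variable [Finite G] {T : Subgroup G} {S : Set G}

theorem claim_one (hS : Sympl r G β) (hT : IsPGroup 2 T) (hA : closure S ≤ T)
    (h1 : ∀ σ ∈ S, σ = 1 ∨ Refl M r σ) (h2 : ∀ σ ∈ S, ∀ a ∈ closure S, Commute σ (a * σ * a⁻¹))
    {y a : G} (hy : y ∈ T) (h3 : ∀ σ ∈ S, y * σ * y⁻¹ ∈ S) {b : ℕ} (hL : LS M r b y)
    (ha : a ∈ closure S) (h4 : (a * y) ^ 2 ^ (b + 1) = 1 ∨ LS M r b (a * y)) (hσ : σ ∈ S)
    (hn : σ * y ^ 2 ^ (b + 1) * σ⁻¹ ≠ y ^ 2 ^ (b + 1)) :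
    (a * y) ^ 2 ^ (b + 1) = y ^ 2 ^ (b + 1) ∨
      (a * y) ^ 2 ^ (b + 1) = σ * y ^ 2 ^ (b + 1) * σ⁻¹ := by
  obtain ⟨t, ht⟩ : ∃ t, t = y ^ 2 ^ (b + 1) := ⟨_, rfl⟩
  have e1 : ∀ z : G, z ^ 2 ^ b * z ^ 2 ^ b = z ^ 2 ^ (b + 1) := fun z => by
    rw [← pow_add, ← two_mul, ← pow_succ']
  have hR : Refl M r t := ht ▸ hL.refl
  have hP : ∀ g ∈ T, ∀ g' ∈ T, g * t * g⁻¹ = g' * t * g'⁻¹ ∨ Perp M (g * t * g⁻¹) (g' * t * g'⁻¹) :=
    fun g hg g' hg' => by
      simpa only [e1, ← ht] using hS.plane_conj hT (pow_mem hy _) hL.pt hg hg'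
  have hST : ∀ τ ∈ S, τ ∈ T := fun τ hτ => hA (subset_closure hτ)
  rw [← ht] at hn ⊢
  have hσR : Refl M r σ := (h1 σ hσ).resolve_left fun e => hn (by simp [e])
  have hσi : σ⁻¹ = σ := inv_eq_of_mul_eq_one_right hσR.1
  obtain ⟨t', ht'⟩ : ∃ t', t' = σ * t * σ⁻¹ := ⟨_, rfl⟩
  have ht'' : σ * t' * σ⁻¹ = t := by simpa only [inv_inv, hσi] using conj_inv_eq ht'.symm
  have hp : Perp M t t' := by
    simpa [← ht'] using (hP 1 (one_mem _) σ (hST σ hσ)).resolve_left (by simpa using hn.symm)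
  have hR' : Refl M r t' := ht' ▸ hR.conj σ
  have hp' := hS.perp_symm hR.1 hp
  rw [← ht'] at hn ⊢
  have hst : ∀ g ∈ closure S, (g * t * g⁻¹ = t ∧ g * t' * g⁻¹ = t') ∨
      (g * t * g⁻¹ = t' ∧ g * t' * g⁻¹ = t) := by
    intro g hg
    induction hg using closure_induction with
    | one => simp
    | mul a b _ _ ha hb =>
      have e : ∀ x, a * b * x * (a * b)⁻¹ = a * (b * x * b⁻¹) * a⁻¹ := fun x => by group
      rw [e, e]
      rcases hb with ⟨e1, e2⟩ | ⟨e1, e2⟩ <;> rw [e1, e2] <;> tauto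
    | inv a _ ha =>
      exact ha.imp (fun h => ⟨conj_inv_eq h.1, conj_inv_eq h.2⟩)
        fun h => ⟨conj_inv_eq h.2, conj_inv_eq h.1⟩
    | mem τ hτ =>
      rcases h1 τ hτ with rfl | hτR
      · simp
      have hk := isPGroup_subgroup_iff.1 hT _ (mul_mem (hST σ hσ) (hST τ hτ))
      have e2 : τ * t * τ⁻¹ = t ∨ τ * t * τ⁻¹ = t' :=
        (hP 1 (one_mem _) τ (hST τ hτ)).imp (fun e => by simpa using e.symm) fun e => by
          rw [ht']
          exact (hS.partner_unique hR hσR hτR hk (ht' ▸ hp) (by simpa using e)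
            (hP _ (hST σ hσ) _ (hST τ hτ))).symm
      have e4 : ∀ g : G, g * σ * t * (g * σ)⁻¹ = g * t' * g⁻¹ := fun g => by rw [ht']; group
      have e3 : τ * t' * τ⁻¹ = t' ∨ τ * t' * τ⁻¹ = t :=
        (hP _ (hST σ hσ) _ (mul_mem (hST τ hτ) (hST σ hσ))).imp
          (fun e => by rw [← e4, ← e, ht']) fun e => by
          rw [← ht'']
          refine (hS.partner_unique hR' hσR hτR hk (ht''.symm ▸ hp') (by rwa [← ht', e4] at e) ?_).symm
          simpa only [e4] using hP _ (mul_mem (hST σ hσ) (hST σ hσ)) _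
            (mul_mem (hST τ hτ) (hST σ hσ))
      have e5 : τ * t * τ⁻¹ ≠ τ * t' * τ⁻¹ := fun e => hn (by simpa using e.symm)
      rcases e2 with e2 | e2 <;> rcases e3 with e3 | e3
      exacts [Or.inl ⟨e2, e3⟩, (e5 (e2.trans e3.symm)).elim, (e5 (e2.trans e3.symm)).elim,
        Or.inr ⟨e2, e3⟩]
  have hyt : y * t * y⁻¹ = t := by rw [ht]; group
  have hy' : Perp M t' y := fun m hm => hL.fix m (ht ▸ hp' m hm)
  have hy'' : Perp M t' y⁻¹ := fun m hm => by rw [inv_smul_eq_iff, hy' m hm]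
  have hyt' := hS.comm_of_fix hR' hy'
  have hσt : ∀ m : M, t • m = -m → t' • σ • m = -(σ • m) := fun m hm => ht' ▸ neg_conj hm σ
  have hσσ : ∀ m : M, σ • σ • m = m := fun m => by rw [smul_smul, hσR.1, one_smul]
  have hyy : ∀ m : M, t • m = -m → t • y • m = -(y • m) := fun m => neg_of_comm hyt
  have hyi : ∀ m : M, t • m = -m → t • y⁻¹ • m = -(y⁻¹ • m) := fun m =>
    neg_of_comm (conj_inv_eq hyt)
  obtain ⟨u, hu0, hu⟩ := hS.exists_ne_zero hR
  obtain rfl : b = 0 := by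
    by_contra hb
    obtain ⟨c, rfl⟩ := Nat.exists_eq_succ_of_ne_zero hb
    obtain ⟨g, hg⟩ : ∃ g, g = y * σ * y⁻¹ * σ := ⟨_, rfl⟩
    have e2 := (h2 σ hσ g (hg ▸ mul_mem (subset_closure (h3 σ hσ)) (subset_closure hσ))).eq
    have e3 : σ * g = g⁻¹ * σ := by
      rw [hg]
      simp only [mul_inv_rev, inv_inv, hσi, mul_assoc]
    have e4 : σ * g⁻¹ = g * σ := by rw [mul_inv_eq_iff_eq_mul, mul_assoc, e3, mul_inv_cancel_left]
    have e5 : g ^ 4 = 1 := by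
      rw [mul_assoc g σ, e4, ← mul_assoc, ← mul_assoc, e3, mul_assoc g⁻¹, mul_assoc g⁻¹,
        e3, mul_assoc g⁻¹, mul_assoc g, mul_assoc g, hσR.1] at e2
      rw [show g ^ 4 = g * g * (g * (g * 1)) by simp [pow_succ, mul_assoc], ← e2]
      group
    have e6 := pow_smul_eq (P := fun m : M => t • m = -m) (a := g) (b := y) (fun m hm => by
      rw [hg, mul_smul, mul_smul, hy'' _ (hσt m hm), mul_smul, hσσ]) hyy 4 u hu
    rw [e5, one_smul] at e6
    refine hu0 (hS.eq_zero ?_ hu)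
    rw [ht, show 2 ^ (c.succ + 1) = 4 * 2 ^ c by rw [Nat.succ_eq_add_one]; ring, pow_mul]
    simpa using pow_smul_eq (P := fun m : M => y ^ 4 • m = m) (a := y ^ 4) (b := 1) (by simp)
      (by simp) _ u e6.symm
  obtain rfl : r = 3 := by simpa using hL.pw
  simp only [zero_add, pow_one, pow_zero, pow_two] at ht h4 e1 ⊢
  by_contra hcon
  push Not at hcon
  have hayT : a * y ∈ T := mul_mem (hA ha) hy
  obtain ⟨h5, h6⟩ : Perp M t (a * y * (a * y)) ∧ Perp M t' (a * y * (a * y)) := by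
    rcases h4 with h4 | h4
    · rw [h4]
      exact ⟨fun m _ => one_smul _ _, fun m _ => one_smul _ _⟩
    have e2 : PT M 3 y := by simpa using hL.pt
    have e3 : PT M 3 (a * y) := by simpa using h4.pt
    have e4 : t' = σ * y * σ⁻¹ * (σ * y * σ⁻¹) := by rw [ht', ht]; group
    exact ⟨ht ▸ (hS.plane hT hy hayT e2 e3).resolve_left fun e => hcon.1 (ht ▸ e.symm),
      e4 ▸ (hS.plane hT (mul_mem (mul_mem (hST σ hσ) hy) (inv_mem (hST σ hσ))) hayT (e2.conj σ)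
        e3).resolve_left fun e => hcon.2 (e4 ▸ e.symm)⟩
  have hneg : ∀ m : M, t • m = -m → y⁻¹ • y⁻¹ • m = -m := fun m hm => by
    rw [inv_smul_eq_iff, inv_smul_eq_iff, smul_smul, ← ht, smul_neg, hm, neg_neg]
  obtain ⟨z, hz⟩ : ∃ z, z = a * y := ⟨_, rfl⟩
  have hzc : ∀ x, y * x * y⁻¹ = x → z * x * z⁻¹ = a * x * a⁻¹ := fun x hx => by
    nth_rewrite 2 [← hx]
    rw [hz]
    group
  rw [← hz] at h5 h6
  rcases hst a ha with ⟨e2, e3⟩ | ⟨e2, e3⟩
  · obtain ⟨ε, e4, e5⟩ := hS.pm' hR ((hzc t hyt).trans e2) fun m hm => by rw [← mul_smul, h5 m hm]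
    obtain ⟨δ, e6, e7⟩ := hS.pm' hR' ((hzc t' hyt').trans e3)
      fun m hm => by rw [← mul_smul, h6 m hm]
    have e8 : ∀ m : M, t • m = -m → a • m = ε • y⁻¹ • m := fun m hm => by
      rw [← e5 _ (hyi m hm), hz, mul_smul, smul_inv_smul]
    have e9 : ∀ m : M, t' • m = -m → a • m = δ • m := fun m hm => by
      rw [← e7 m hm, hz, mul_smul, hy' m hm]
    have e10 : ∀ m : M, t • m = -m → a⁻¹ • m = ε • y • m := fun m hm => by
      rw [inv_smul_eq_iff, smul_comm a, e8 _ (hyy m hm), smul_smul, e4, one_smul, inv_smul_smul]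
    have e11 : ∀ m : M, t' • m = -m → a⁻¹ • m = δ • m := fun m hm => by
      rw [inv_smul_eq_iff, smul_comm a, e9 m hm, smul_smul, e6, one_smul]
    have e12 := congrArg (· • u) (h2 σ hσ a ha).eq
    simp only [mul_smul] at e12
    rw [e10 u hu, e11 _ (hσt u hu), smul_comm σ ε, smul_comm a ε, e9 _ (hσt _ (hyy u hu)),
      smul_comm σ ε, smul_comm σ δ, smul_comm σ δ, hσσ, hσσ, smul_comm a δ, e8 u hu,
      smul_comm δ ε] at e12
    have e13 := congrArg (fun v => y⁻¹ • δ • ε • v) e12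
    simp only [smul_smul ε ε, smul_smul δ δ, e4, e6, one_smul, inv_smul_smul, hneg u hu] at e13
    exact hu0 (hS.eq_zero_of_neg (hS.tors u) e13)
  · rw [← hzc t hyt] at e2
    rw [← hzc t' hyt'] at e3
    have e4 : a * (y * σ * y⁻¹) * a⁻¹ = z * σ * z⁻¹ := by rw [hz]; group
    have e5 := h2 _ (h3 σ hσ) a ha
    rw [e4] at e5
    have e6 : ∀ g : G, (g * σ * g⁻¹) * (g * σ * g⁻¹) = 1 := fun g => (hσR.conj g).1
    obtain ⟨ε, e7, e8⟩ := hS.pm' hR (g := y * σ * y⁻¹ * (z * σ * z⁻¹)) (by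
      have f1 := conj_inv_eq e3
      have f2 := conj_inv_eq hyt'
      calc _ = y * (σ * (y⁻¹ * (z * (σ * (z⁻¹ * t * z⁻¹⁻¹) * σ⁻¹) * z⁻¹) * y⁻¹⁻¹) * σ⁻¹) * y⁻¹ := by
            group
        _ = t := by rw [f1, ht'', e2, f2, ht'', hyt]) fun m _ => by
      rw [smul_smul, ← pow_two, e5.mul_pow, pow_two, pow_two, e6, e6, one_mul, one_smul]
    have e9 : ∀ m : M, t • m = -m → (σ * z) • (σ * z) • m = ε • y⁻¹ • m := fun m hm => by
      have f1 := congrArg ((y * σ * y⁻¹) • ·) (e8 m hm)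
      have f2 : z⁻¹ • m = z • m := by rw [inv_smul_eq_iff, ← mul_smul, h5 m hm]
      have f3 := hy' _ (hσt _ (hyi m hm))
      simp only [smul_smul (y * σ * y⁻¹), ← mul_assoc, e6, one_mul] at f1
      simp only [mul_smul, f2, smul_comm _ ε, f3] at f1 ⊢
      rw [f1, smul_comm σ ε, hσσ]
    refine hS.no_eight hR (k := σ * z) (by
      rw [show σ * z * t * (σ * z)⁻¹ = σ * (z * t * z⁻¹) * σ⁻¹ by group, e2, ht''])
      fun m hm => ?_
    rw [e9 m hm, smul_comm _ ε, smul_comm _ ε, e9 _ (hyi m hm), smul_smul, e7, one_smul, hneg m hm]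

theorem step_one (hS : Sympl r G β) (hT : IsPGroup 2 T) (hA : closure S ≤ T)
    (h1 : ∀ σ ∈ S, σ = 1 ∨ Refl M r σ) (h2 : ∀ σ ∈ S, ∀ a ∈ closure S, Commute σ (a * σ * a⁻¹))
    {y a : G} (hy : y ∈ T) (ha : a ∈ closure S) (h3 : ∀ σ ∈ S, y * σ * y⁻¹ ∈ S)
    (h3' : ∀ σ ∈ S, a * y * σ * (a * y)⁻¹ ∈ S) {c : ℕ}
    (h4 : y ^ 2 ^ c = 1 ∨ ∃ b, c = b + 1 ∧ LS M r b y)
    (h5 : (a * y) ^ 2 ^ c = 1 ∨ ∃ b, c = b + 1 ∧ LS M r b (a * y)) :
    Commute ((a * y) ^ 2 ^ c) (y ^ 2 ^ c) ∧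
      ∀ σ ∈ S, Commute σ ((a * y) ^ 2 ^ c * y ^ 2 ^ c) := by
  have e1 : ∀ (z : G) (b : ℕ), z ^ 2 ^ b * z ^ 2 ^ b = z ^ 2 ^ (b + 1) := fun z b => by
    rw [← pow_add, ← two_mul, ← pow_succ']
  have hc : Commute ((a * y) ^ 2 ^ c) (y ^ 2 ^ c) := by
    rcases h4 with h4 | ⟨b, rfl, h4⟩
    · rw [h4]; exact Commute.one_right _
    rcases h5 with h5 | ⟨b', e, h5⟩
    · rw [h5]; exact Commute.one_left _
    obtain rfl : b = b' := by omega
    refine hS.comm_of_plane h4.refl ?_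
    simpa only [e1] using hS.plane hT (pow_mem hy _) (pow_mem (mul_mem (hA ha) hy) _) h4.pt h5.pt
  have key : ∀ {t t' σ : G}, σ * σ = 1 → t * t = 1 → Commute t' t → t' = t ∨ t' = σ * t * σ⁻¹ →
      Commute σ (t' * t) := by
    rintro t t' σ hσ ht h (rfl | rfl)
    · rw [ht]; exact Commute.one_right _
    · rw [Commute, SemiconjBy]
      nth_rewrite 2 [h.eq]
      rw [inv_eq_of_mul_eq_one_right hσ]
      simp only [← mul_assoc, hσ, one_mul]
      simp only [mul_assoc, hσ, mul_one]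
  refine ⟨hc, fun σ hσ => ?_⟩
  have hσσ : σ * σ = 1 := (h1 σ hσ).elim (fun e => by simp [e]) fun h => h.1
  by_cases h6 : σ * y ^ 2 ^ c * σ⁻¹ = y ^ 2 ^ c
  · by_cases h7 : σ * (a * y) ^ 2 ^ c * σ⁻¹ = (a * y) ^ 2 ^ c
    · exact Commute.mul_right (mul_inv_eq_iff_eq_mul.1 h7) (mul_inv_eq_iff_eq_mul.1 h6)
    replace h5 := h5.resolve_left fun e => h7 (by simp [e])
    obtain ⟨b, rfl, h5⟩ := h5
    have := hS.claim_one hT hA h1 h2 (mul_mem (hA ha) hy) h3' h5 (inv_mem ha) (by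
      rw [inv_mul_cancel_left]
      exact h4.imp_right fun ⟨b', e, h⟩ => (by omega : b' = b) ▸ h) hσ h7
    rw [inv_mul_cancel_left] at this
    exact hc.eq ▸ key hσσ h5.refl.1 hc.symm this
  · replace h4 := h4.resolve_left fun e => h6 (by simp [e])
    obtain ⟨b, rfl, h4⟩ := h4
    exact key hσσ h4.refl.1 hc (hS.claim_one hT hA h1 h2 hy h3 h4 ha
      (h5.imp_right fun ⟨b', e, h⟩ => (by omega : b' = b) ▸ h) hσ h6)

end Sympl

end CfsgLib.TwoLen
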