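import Mathlib
import Cfsg.Agent.Lib.TwoLen.Local
import Cfsg.Agent.Lib.TwoLen.Partner
import Cfsg.Agent.Lib.TwoLen.Derived

/-!
The `2`-length of a solvable group is at most the exponent of a Sylow `2`-subgroup.
-/

set_option autoImplicit false

namespace CfsgLib.TwoLen

open Subgroup Cfsg CfsgLib.Core CfsgLib.HH CfsgLib.PLocal CfsgLib.PLen Finset
open scoped commutatorElement

universe u v w

variable {Y : Type u} [Group Y]

theorem exists_mul_pow {A : Subgroup Y} {a y : Y} (hy : y ∈ normalizer (A : Set Y)) (ha : a ∈ A)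
    (k : ℕ) : ∃ a' ∈ A, (a * y) ^ k = a' * y ^ k := by
  induction k with
  | zero => exact ⟨1, one_mem _, by simp⟩
  | succ k ih =>
    obtain ⟨a', ha', e⟩ := ih
    exact ⟨_, mul_mem ha' ((mem_normalizer_iff.1 (pow_mem hy k) a).1 ha), by
      rw [pow_succ, e, pow_succ]; group⟩

/-- the central elements of order at most two -/
def zo (A : Subgroup Y) : Subgroup Y where
  carrier := {g | g ∈ A ∧ g ∈ centralizer (A : Set Y) ∧ g * g = 1}
  one_mem' := ⟨one_mem _, one_mem _, one_mul _⟩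
  mul_mem' := fun {a b} ha hb => ⟨mul_mem ha.1 hb.1, mul_mem ha.2.1 hb.2.1, by
    rw [mul_assoc, ← mul_assoc b, ← hb.2.1 a ha.1, mul_assoc, hb.2.2, mul_one, ha.2.2]⟩
  inv_mem' := fun {a} ha => ⟨inv_mem ha.1, inv_mem ha.2.1, by rw [← mul_inv_rev, ha.2.2, inv_one]⟩

theorem normalizer_le_zo [Finite Y] (A : Subgroup Y) :
    normalizer (A : Set Y) ≤ normalizer (zo A : Set Y) := fun g hg =>
  mem_normalizer_of_forall_conj_mem fun x hx => ⟨(mem_normalizer_iff.1 hg x).1 hx.1,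
    (mem_normalizer_iff.1 (normalizer_le_normalizer_centralizer _ hg) x).1 hx.2.1, by
      rw [show g * x * g⁻¹ * (g * x * g⁻¹) = g * (x * x) * g⁻¹ by group, hx.2.2]; group⟩

/-- the `2 ^ n`-th powers of the `2`-elements normalizing `P` -/
def tset (n : ℕ) (P : Subgroup Y) : Set Y :=
  {t | ∃ z ∈ normalizer (P : Set Y), (∃ k : ℕ, z ^ 2 ^ k = 1) ∧ z ^ 2 ^ n = t}

theorem conj_mem_tset {n : ℕ} {P : Subgroup Y} {g t : Y} (hg : g ∈ normalizer (P : Set Y))
    (ht : t ∈ tset n P) : g * t * g⁻¹ ∈ tset n P := by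
  obtain ⟨z, hz, ⟨k, hk⟩, rfl⟩ := ht
  exact ⟨_, mul_mem (mul_mem hg hz) (inv_mem hg), ⟨k, by rw [conj_pow, hk]; group⟩, conj_pow⟩

theorem tset_le (n : ℕ) (P : Subgroup Y) : closure (tset n P) ≤ normalizer (P : Set Y) :=
  (closure_le _).2 fun _ ⟨_, hz, _, e⟩ => e ▸ pow_mem hz _

theorem normalizer_le_tset [Finite Y] (n : ℕ) (P : Subgroup Y) :
    normalizer (P : Set Y) ≤ normalizer (closure (tset n P) : Set Y) := fun g hg =>
  mem_normalizer_of_forall_conj_mem fun _ hx => (closure_le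
    ((closure (tset n P)).comap (MulAut.conj g).toMonoidHom)).2
      (fun _ ht => subset_closure (conj_mem_tset hg ht)) hx

theorem isPGroup_sup_zpowers {P : Subgroup Y} (hP : IsPGroup 2 P) {z : Y}
    (hz : z ∈ normalizer (P : Set Y)) (hk : ∃ k : ℕ, z ^ 2 ^ k = 1) :
    IsPGroup 2 (zpowers z ⊔ P : Subgroup Y) :=
  IsPGroup.to_sup_of_normal_right' (isPGroup_zpowers_iff.2 hk) hP (zpowers_le_of_mem hz)

section Rep

variable {F : Type w} [Field F] {V : Type v} [AddCommGroup V] [Module F V]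

/-- the norm maps of all `2`-elements vanish -/
def HB (ρ : Representation F Y V) (n : ℕ) : Prop :=
  ∀ y : Y, (∃ k : ℕ, y ^ 2 ^ k = 1) → ∑ i ∈ range (2 ^ n), ρ (y ^ i) = 0

variable {ρ : Representation F Y V} {n r : ℕ} {R P : Subgroup Y} {W : Submodule F V}

theorem HB.pow_eq_one (h : HB ρ n) (hρ : ∀ y, ρ y = 1 → y = 1) {y : Y}
    (hy : ∃ k : ℕ, y ^ 2 ^ k = 1) : y ^ 2 ^ n = 1 := hρ _ (by
  have h1 := h y hy
  simp only [map_pow] at h1 ⊢
  rw [← sub_eq_zero, ← geom_sum_mul, h1, zero_mul])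

theorem sum_prodRep {U : Submodule F V} (hU : ∀ g, U ≤ U.comap (ρ g)) (s : Finset ℕ) (g : ℕ → Y)
    (u : U) (v : V) : (((∑ i ∈ s, prodRep ρ U hU (g i)) (u, U.mkQ v)).1 : V) = (∑ i ∈ s, ρ (g i)) u ∧
      ((∑ i ∈ s, prodRep ρ U hU (g i)) (u, U.mkQ v)).2 = U.mkQ ((∑ i ∈ s, ρ (g i)) v) := by
  simp only [LinearMap.sum_apply, prodRep_apply, Prod.fst_sum, Prod.snd_sum, Submodule.coe_sum,
    map_sum, and_self]

theorem hb_prodRep {U : Submodule F V} (hU : ∀ g, U ≤ U.comap (ρ g))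
    (h : ∀ y : Y, (∃ k : ℕ, y ^ 2 ^ k = 1) → (∀ v, (∑ i ∈ range (2 ^ n), ρ (y ^ i)) v ∈ U) ∧
      ∀ v ∈ U, (∑ i ∈ range (2 ^ n), ρ (y ^ i)) v = 0) : HB (prodRep ρ U hU) n := fun y hy => by
  refine LinearMap.ext fun ⟨u, w⟩ => ?_
  obtain ⟨v, rfl⟩ := U.mkQ_surjective w
  obtain ⟨h1, h2⟩ := sum_prodRep hU (range (2 ^ n)) (y ^ ·) u v
  exact Prod.ext (Subtype.ext (h1.trans ((h y hy).2 u u.2)))
    (h2.trans ((Submodule.Quotient.mk_eq_zero U).2 ((h y hy).1 v)))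

theorem exists_hb [CharP F 2] [FiniteDimensional F V] (hO : pCore 2 Y = ⊥)
    (hρ : ∀ y, ρ y = 1 → y = 1) {U U' : Submodule F V}
    (hU : ∀ g, U ≤ U.comap (ρ g)) (hU' : ∀ g, U' ≤ U'.comap (ρ g))
    (h : ∀ y : Y, (∃ k : ℕ, y ^ 2 ^ k = 1) → (∀ v, (∑ i ∈ range (2 ^ n), ρ (y ^ i)) v ∈ U) ∧
      (∀ v ∈ U, (∑ i ∈ range (2 ^ n), ρ (y ^ i)) v ∈ U') ∧
      ∀ v ∈ U', (∑ i ∈ range (2 ^ n), ρ (y ^ i)) v = 0) :
    ∃ (V' : Type v) (_ : AddCommGroup V') (_ : Module F V') (_ : FiniteDimensional F V')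
      (σ : Representation F Y V'), (∀ y, σ y = 1 → y = 1) ∧ HB σ n := by
  have h1 : ∀ g, (U'.comap U.subtype).prod ⊥ ≤
      ((U'.comap U.subtype).prod ⊥).comap (prodRep ρ U hU g) := by
    rintro g ⟨u, w⟩ ⟨h1, rfl : w = 0⟩
    exact ⟨hU' g h1, map_zero (ρ.quotient U hU g)⟩
  refine ⟨_, inferInstance, inferInstance, inferInstance, prodRep _ _ h1,
    prodRep_faithful hO (prodRep_faithful hO hρ hU) h1, hb_prodRep h1 fun y hy => ⟨?_, ?_⟩⟩
  · rintro ⟨u, w⟩
    obtain ⟨v, rfl⟩ := U.mkQ_surjective w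
    obtain ⟨h2, h3⟩ := sum_prodRep hU (range (2 ^ n)) (y ^ ·) u v
    exact ⟨(congrArg (· ∈ U') h2).mpr ((h y hy).2.1 u u.2),
      h3.trans ((Submodule.Quotient.mk_eq_zero U).2 ((h y hy).1 v))⟩
  · rintro ⟨u, w⟩ ⟨h2, rfl : w = 0⟩
    obtain ⟨h3, h4⟩ := sum_prodRep hU (range (2 ^ n)) (y ^ ·) u 0
    exact Prod.ext (Subtype.ext (h3.trans ((h y hy).2.2 u h2))) (by simpa using h4)

variable [FiniteDimensional F V]

theorem map_eq_iff_mem_stab {g : Y} : W.map (ρ g) = W ↔ g ∈ stab ρ W :=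
  ⟨fun h _ hv => h ▸ Submodule.mem_map_of_mem hv, fun h => le_antisymm
    (Submodule.map_le_iff_le_comap.2 h) fun v hv =>
      ⟨_, (stab ρ W).inv_mem h v hv, ρ.self_inv_apply g v⟩⟩

theorem exists_period (hρ : ∀ y, ρ y = 1 → y = 1) (h : HB ρ (n + 1)) (hR : Good r R)
    (hW : IsComp ρ R W) {y : Y} (hy : ∃ k : ℕ, y ^ 2 ^ k = 1) : ∃ c b, c + b = n ∧ ∀ a ∈ cz Y,
      (∃ k : ℕ, (a * y) ^ 2 ^ k = 1) → (a * y) ^ 2 ^ c ∈ stab ρ W ∧
        ∀ v ∈ W, ∑ i ∈ range (2 ^ (b + 1)), ρ (((a * y) ^ 2 ^ c) ^ i) v = 0 := by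
  have := hR.normal
  have := cz_normal (Y := Y)
  have h1 : ∀ (z : Y) (k : ℕ), Function.IsPeriodicPt (Submodule.map (ρ z)) k W ↔ z ^ k ∈ stab ρ W :=
    fun z k => by
      rw [Function.IsPeriodicPt, Function.IsFixedPt, iterate_map_eq, ← map_pow, map_eq_iff_mem_stab]
  obtain ⟨c, hc, h2⟩ := (Nat.dvd_prime_pow Nat.prime_two).1 ((h1 y _).2
    (h.pow_eq_one hρ hy ▸ one_mem _)).minimalPeriod_dvd
  have key : ∀ b, c + b = n + 1 → ∀ a ∈ cz Y, (∃ k : ℕ, (a * y) ^ 2 ^ k = 1) →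
      (a * y) ^ 2 ^ c ∈ stab ρ W ∧
        ∀ v ∈ W, ∑ i ∈ range (2 ^ b), ρ (((a * y) ^ 2 ^ c) ^ i) v = 0 := fun b hb a ha hk => by
    have h3 : Function.minimalPeriod (Submodule.map (ρ (a * y))) W = 2 ^ c := by
      rw [← h2, Function.minimalPeriod_eq_minimalPeriod_iff]
      intro k
      obtain ⟨a', ha', e⟩ := exists_mul_pow (le_normalizer_of_normal (mem_top y)) ha k
      rw [h1, h1, e, mul_mem_cancel_left (hW.cz_le hR ha')]
    have h4 := (h1 _ _).1 (h3 ▸ Function.isPeriodicPt_minimalPeriod _ W)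
    refine ⟨h4, fun v hv => ?_⟩
    obtain ⟨-, χ, rfl⟩ := hW
    have h5 := LinearMap.congr_fun (h _ hk) v
    generalize a * y = z at h3 h4 h5
    have h6 : ∀ s : ℕ, (∑ j ∈ range (2 ^ b), ρ (z ^ (2 ^ c * j + s))) v =
        (ρ z ^ s) (∑ j ∈ range (2 ^ b), ρ ((z ^ 2 ^ c) ^ j) v) := fun s => by
      rw [LinearMap.sum_apply, map_sum]
      refine sum_congr rfl fun j _ => ?_
      rw [add_comm, pow_add, map_mul, pow_mul, map_pow ρ z s, Module.End.mul_apply]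
    rw [← hb, pow_add, sum_range_mul_eq, ← Fin.sum_univ_eq_sum_range
      (fun s => ∑ j ∈ range (2 ^ b), ρ (z ^ (2 ^ c * j + s))), LinearMap.sum_apply] at h5
    simpa [pow_mul] using (iSupIndep_iff_finsetSum_eq_zero_imp_eq_zero _).1 (wt_translates_indep ρ
      (le_normalizer_of_normal (mem_top z)) χ h3) univ _ (fun i _ => by
        rw [h6]
        exact Submodule.mem_map_of_mem (Submodule.sum_mem _ fun j _ => pow_mem h4 j v hv)) h5
      ⟨0, by positivity⟩ (mem_univ _)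
  rcases hc.eq_or_lt with rfl | hc
  · refine (hW.1 ((Submodule.eq_bot_iff _).2 fun v hv => ?_)).elim
    simpa using (key 0 rfl 1 (one_mem _) (by rwa [one_mul])).2 v hv
  · exact ⟨c, n - c, by omega, key _ (by omega)⟩

variable [IsAlgClosed F] [CharP F 2] [Finite Y]

theorem tset_le_cz (hρ : ∀ y, ρ y = 1 → y = 1) (h : HB ρ (n + 1)) : closure (tset n P) ≤ cz Y :=
  (closure_le _).2 fun _ ⟨z, _, hk, e⟩ => mem_cz.2 fun r R hR => mem_centralizer_ctr hρ hR
    fun W hW => by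
      obtain ⟨c, b, rfl, h1⟩ := exists_period hρ h hR hW hk
      have h2 := (h1 1 (one_mem _) (by rwa [one_mul])).1
      rw [← e, pow_add, pow_mul]
      exact pow_mem (by rwa [one_mul] at h2) _

section Comp

variable {G M C : Type*} [Group G] [Finite G] [AddCommGroup M] [Finite M] [AddCommGroup C]
  [DistribMulAction G M] {β : M →+ M →+ C} {π : stab ρ W →* G} {q : Y → M}

omit [Finite G] in
theorem Model.local_at (hρ : ∀ y, ρ y = 1 → y = 1) (h : HB ρ (n + 1)) (hR : Good r R)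
    (hW : IsComp ρ R W) (hm : Model ρ W R r β π q) {y : Y} (hy : ∃ k : ℕ, y ^ 2 ^ k = 1) :
    ∃ c b, c + b = n ∧ ∀ a ∈ cz Y, (∃ k : ℕ, (a * y) ^ 2 ^ k = 1) → ∃ z : stab ρ W,
      (z : Y) = (a * y) ^ 2 ^ c ∧ (π z ^ 2 ^ b = 1 ∨ ∃ b', b = b' + 1 ∧ LS M r b' (π z)) := by
  obtain ⟨c, b, rfl, h1⟩ := exists_period hρ h hR hW hy
  refine ⟨c, b, rfl, fun a ha hk => ⟨⟨_, (h1 a ha hk).1⟩, rfl,
    hm.local_ls hR (hW.homog hR) _ (Subtype.ext ?_) (h1 a ha hk).2⟩⟩
  rw [Subgroup.coe_pow, ← pow_mul, ← pow_add, ← add_assoc]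
  exact h.pow_eq_one hρ hk

omit [Finite G] in
theorem Model.local_pt (hρ : ∀ y, ρ y = 1 → y = 1) (h : HB ρ (n + 1)) (hR : Good r R)
    (hW : IsComp ρ R W) (hm : Model ρ W R r β π q) {y : Y} (hy : ∃ k : ℕ, y ^ 2 ^ k = 1)
    {t : stab ρ W} (ht : y ^ 2 ^ n = t) :
    π t = 1 ∨ ∃ s : stab ρ W, (s : Y) ∈ zpowers y ∧ PT M r (π s) ∧ π s * π s = π t := by
  obtain ⟨c, b, rfl, h1⟩ := hm.local_at hρ h hR hW hy
  obtain ⟨z, hz, h2⟩ := h1 1 (one_mem _) (by rwa [one_mul])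
  rw [one_mul] at hz
  obtain rfl : z ^ 2 ^ b = t := Subtype.ext (by rw [← ht, pow_add, pow_mul, ← hz]; rfl)
  rw [map_pow]
  refine h2.imp_right fun ⟨b', e, h2⟩ => ⟨z ^ 2 ^ b', pow_mem (hz ▸ npow_mem_zpowers _ _) _, ?_⟩
  rw [map_pow, ← pow_add, ← two_mul, ← pow_succ', e]
  exact ⟨h2.pt, rfl⟩

omit [IsAlgClosed F] [CharP F 2] [Finite Y] [Finite G] in
theorem closure_image (π : stab ρ W →* G) {S : Set Y} (hS : closure S ≤ stab ρ W) :
    closure (π '' (Subtype.val ⁻¹' S)) = ((closure S).subgroupOf (stab ρ W)).map π := by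
  rw [← MonoidHom.map_closure]
  congr 1
  rw [← map_subtype_inj, MonoidHom.map_closure, map_subgroupOf_eq_of_le hS, coe_subtype,
    Set.image_preimage_eq_of_subset]
  exact fun x hx => ⟨⟨x, hS (subset_closure hx)⟩, rfl⟩

theorem Model.gross (hρ : ∀ y, ρ y = 1 → y = 1) (h : HB ρ (n + 1)) (hR : Good r R)
    (hW : IsComp ρ R W) (hm : Model ρ W R r β π q) (hP : IsPGroup 2 P) {x u : stab ρ W}
    (hx : (x : Y) ∈ closure (tset n P)) (ho : Odd (orderOf (x : Y))) (hu : (u : Y) ∈ P ⊓ cz Y) :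
    π ⁅x, u⁆ = 1 := by
  have := cz_normal (Y := Y)
  set Q := ((P ⊓ cz Y).subgroupOf (stab ρ W)).map π with hQ
  have hQp : IsPGroup 2 Q := (hP.to_inf_left.comap_subtype).map π
  have hN : ∀ g : stab ρ W, (g : Y) ∈ normalizer (P : Set Y) → π g ∈ normalizer (Q : Set G) :=
    fun g hg => le_normalizer_map π (mem_map_of_mem π (mem_normalizer_subgroupOf
      (inf_normalizer_le_normalizer_inf ⟨hg, le_normalizer_of_normal (mem_top _)⟩)))
  have h1 : ⁅closure (π '' (Subtype.val ⁻¹' tset n P)), Q⁆ ≤ (frattini Q).map Q.subtype := by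
    refine commutator_closure_left_le ?_ ?_
    · rintro _ ⟨t, ht, rfl⟩
      exact normalizer_le_normalizer_map_frattini Q (hN t (tset_le n P (subset_closure ht)))
    rintro _ ⟨t, ⟨z, hz, hk, e⟩, rfl⟩ _ ⟨v, hv, rfl⟩
    rcases hm.local_pt hρ h hR hW hk e with h1 | ⟨s, hs, h1, h2⟩
    · simp [h1]
    rw [← commutatorElement_inv, inv_mem_iff, ← h2]
    rcases hm.sympl.gross_local ((isPGroup_sup_zpowers hP hz hk).comap_subtype.map π)
      (mem_map_of_mem π (show s ∈ subgroupOf _ _ from mem_sup_left hs)) h1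
      (mem_map_of_mem π (show v ∈ subgroupOf _ _ from mem_sup_right hv.1)) with h3 | h3
    · simp [h3]
    · rw [h3]
      refine pow_mem_map_frattini hQp ?_
      rw [commutatorElement_def, mul_assoc, mul_assoc, ← mul_assoc (π s)]
      exact mul_mem (mem_map_of_mem π hv) ((mem_normalizer_iff.1
        (hN s (zpowers_le_of_mem hz hs)) _).1 (inv_mem (mem_map_of_mem π hv)))
  rw [closure_image π ((tset_le_cz hρ h).trans (hW.cz_le hR)), commutator_comm] at h1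
  rw [map_commutatorElement, commutatorElement_eq_one_iff_mul_comm]
  refine (Coprime.le_centralizer_of_commutator_le_frattini (A := zpowers (π x)) ?_
    ((commutator_mono le_rfl (zpowers_le_of_mem (mem_map_of_mem π hx))).trans h1) (mem_zpowers _)
    _ (mem_map_of_mem π hu)).symm
  refine (isPGroup_coprime_card (hQp.to_subgroup _) ?_).symm
  rw [Nat.card_zpowers, Nat.coprime_two_right]
  exact ho.of_dvd_nat ((orderOf_map_dvd π x).trans (orderOf_coe x).symm.dvd)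

theorem Model.steps (hρ : ∀ y, ρ y = 1 → y = 1) (h : HB ρ (n + 1)) (hR : Good r R)
    (hW : IsComp ρ R W) (hm : Model ρ W R r β π q) (hP : IsPGroup 2 P)
    (hA : closure (tset n P) ≤ P) {y a : Y} (hy : y ∈ normalizer (P : Set Y))
    (hk : ∃ k : ℕ, y ^ 2 ^ k = 1) (ha : a ∈ closure (tset n P)) {t t' : stab ρ W}
    (ht : y ^ 2 ^ n = t) (ht' : (a * y) ^ 2 ^ n = t') :
    (Commute (π t') (π t) ∧ ∀ σ : stab ρ W, (σ : Y) ∈ tset n P → Commute (π σ) (π t' * π t)) ∧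
      (a ∈ zo (closure (tset n P)) → π t' = π t) := by
  have hS := hm.sympl
  have hc := tset_le_cz (P := P) hρ h
  have hT := isPGroup_sup_zpowers hP hy hk
  have hk' := isPGroup_subgroup_iff.1 hT _ (mul_mem (mem_sup_right (hA ha))
    (mem_sup_left (mem_zpowers y)))
  obtain ⟨c, b, rfl, h1⟩ := hm.local_at hρ h hR hW hk
  obtain ⟨z, hz, h2⟩ := h1 1 (one_mem _) (by rwa [one_mul])
  obtain ⟨z', hz', h3⟩ := h1 a (hc ha) hk'
  rw [one_mul] at hz
  have e1 : z ^ 2 ^ b = t := Subtype.ext (by rw [← ht, pow_add, pow_mul, ← hz]; rfl)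
  have e2 : z' ^ 2 ^ b = t' := Subtype.ext (by rw [← ht', pow_add, pow_mul, ← hz']; rfl)
  have hzN : (z : Y) ∈ normalizer (P : Set Y) := hz ▸ pow_mem hy _
  have hzN' : (z' : Y) ∈ normalizer (P : Set Y) :=
    hz' ▸ pow_mem (mul_mem (le_normalizer (hA ha)) hy) _
  have key : ∀ B : Subgroup Y, B ≤ closure (tset (c + b) P) → y ∈ normalizer (B : Set Y) → a ∈ B →
      ∃ a' : stab ρ W, (a' : Y) ∈ B ∧ z' = a' * z := fun B h4 h5 h6 => by
    obtain ⟨a', h7, e⟩ := exists_mul_pow h5 h6 (2 ^ c)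
    exact ⟨⟨a', hW.cz_le hR (hc (h4 h7))⟩, h7, Subtype.ext (by rw [hz', e, ← hz]; rfl)⟩
  refine ⟨?_, fun haz => ?_⟩
  · obtain ⟨a', ha', e⟩ := key _ le_rfl (normalizer_le_tset _ P hy) ha
    have e3 := closure_image π (hc.trans (hW.cz_le hR))
    have h4 : ∀ g : stab ρ W, (g : Y) ∈ normalizer (P : Set Y) →
        ∀ σ ∈ π '' (Subtype.val ⁻¹' tset (c + b) P),
          π g * σ * (π g)⁻¹ ∈ π '' (Subtype.val ⁻¹' tset (c + b) P) := by
      rintro g hg _ ⟨σ, hσ, rfl⟩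
      exact ⟨g * σ * g⁻¹, conj_mem_tset hg hσ, by simp⟩
    have h5 := hS.step_one (hT.comap_subtype.map π) (S := π '' (Subtype.val ⁻¹' tset (c + b) P))
      (e3 ▸ map_mono (comap_mono (hA.trans le_sup_right))) (by
        rintro _ ⟨σ, ⟨w, -, hw, e⟩, rfl⟩
        exact (hm.local_pt hρ h hR hW hw e).imp_right fun ⟨s, _, h5, h6⟩ => h6 ▸ h5.refl) (by
        rw [e3]
        rintro _ ⟨σ, ⟨w, hwP, hw, e⟩, rfl⟩ _ ⟨g, hg, rfl⟩
        rcases hm.local_pt hρ h hR hW hw e with h5 | ⟨s, hs, h5, h6⟩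
        · rw [h5]; exact Commute.one_left _
        refine (hS.comm_of_plane (h6 ▸ h5.refl) ?_).symm
        simpa only [h6, one_mul, inv_one, mul_one] using hS.plane_conj
          ((isPGroup_sup_zpowers hP hwP hw).comap_subtype.map π)
          (mem_map_of_mem π (show s ∈ subgroupOf _ _ from mem_sup_left hs)) h5 (one_mem _)
          (mem_map_of_mem π (show g ∈ subgroupOf _ _ from mem_sup_right (hA hg))))
      (mem_map_of_mem π (show z ∈ subgroupOf _ _ from mem_sup_left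
        (show (z : Y) ∈ _ from hz ▸ npow_mem_zpowers _ _)))
      (e3 ▸ mem_map_of_mem π ha') (h4 z hzN) (by rw [← map_mul, ← e]; exact h4 z' hzN') h2
      (by rwa [← map_mul, ← e])
    rw [← map_mul, ← e, ← map_pow, ← map_pow, e1, e2] at h5
    exact ⟨h5.1, fun σ hσ => h5.2 _ ⟨σ, hσ, rfl⟩⟩
  obtain ⟨a', ha', e⟩ := key (zo _) (fun _ hg => hg.1)
    (normalizer_le_zo _ (normalizer_le_tset _ P hy)) haz
  have h4 : ∀ g : stab ρ W, (g : Y) ∈ zo (closure (tset (c + b) P)) → ∀ s : stab ρ W,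
      (s : Y) ∈ tset (c + b) P → π g * π g = 1 ∧ π g * π s * (π g)⁻¹ = π s := fun g hg s hs =>
    ⟨by rw [← map_mul, show g * g = 1 from Subtype.ext hg.2.2, map_one], by
      rw [mul_inv_eq_iff_eq_mul, ← map_mul, ← map_mul,
        show g * s = s * g from Subtype.ext (hg.2.1 _ (subset_closure hs)).symm]⟩
  have h5 := h4 a' ha' t ⟨y, hy, hk, ht⟩
  have h6 := h4 a'⁻¹ (inv_mem ha') t' ⟨_, mul_mem (le_normalizer (hA ha)) hy, hk', ht'⟩
  rw [← e1, map_pow] at h5 ⊢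
  rw [← e2, map_pow] at h6 ⊢
  rcases h2 with h2 | ⟨b', rfl, h2⟩
  · rcases h3 with h3 | ⟨b', rfl, h3⟩
    · rw [h2, h3]
    · have h7 := hS.step_two h3 h6.1 h6.2 (Or.inl (by rwa [← map_mul, e, inv_mul_cancel_left]))
      rw [← h7, ← map_mul, e, inv_mul_cancel_left]
  · rw [e, map_mul] at h3 ⊢
    exact hS.step_two h2 h5.1 h5.2 (h3.imp_right fun ⟨b, e, h3⟩ => (by omega : b = b') ▸ h3.refl)

end Comp

variable [Group.IsSolvable Y]

theorem tset_le_of_red (hO : pCore 2 Y = ⊥) (hρ : ∀ y, ρ y = 1 → y = 1) (h : HB ρ (n + 1))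
    {X : Type u} [Group X] {f : Y →* X} (hf : Red f P) : closure (tset n P) ≤ P := by
  have := cz_normal (Y := Y)
  have hc := tset_le_cz (P := P) hρ h
  have h1 := hf.map_le hc (tset_le n P) (normalizer_le_tset n P) fun x hx ho u hu => by
    rw [eq_comm, ← commutatorElement_eq_one_iff_mul_comm]
    refine eq_one_of_forall_kern hO hρ (isPGroup_subgroup_iff.1 hf.pgrp _ (mul_mem
      ((mem_normalizer_iff.1 (tset_le n P hx) u).1 hu.1) (inv_mem hu.1))) fun r R W hR hW => ?_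
    have := hR.normal
    obtain ⟨G, M, _, _, _, _, _, β, π, q, hm⟩ := exists_model hR (hW.homog hR)
    exact (hm.ker _).1 (hm.gross hρ h hR hW hf.pgrp (x := ⟨x, hW.cz_le hR (hc hx)⟩)
      (u := ⟨u, hW.cz_le hR hu.2⟩) hx ho hu)
  refine (closure_le _).2 fun t ht => ?_
  obtain ⟨z, hz, hk, e⟩ := id ht
  exact hf.syl _ (isPGroup_sup_zpowers hf.pgrp hz hk) le_sup_right t
    (mem_sup_left (e ▸ npow_mem_zpowers _ _)) (h1 (mem_map_of_mem f (subset_closure ht)))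

theorem steps (hO : pCore 2 Y = ⊥) (hρ : ∀ y, ρ y = 1 → y = 1) (h : HB ρ (n + 1))
    (hP : IsPGroup 2 P) (hA : closure (tset n P) ≤ P) {y a : Y} (hy : y ∈ normalizer (P : Set Y))
    (hk : ∃ k : ℕ, y ^ 2 ^ k = 1) (ha : a ∈ closure (tset n P)) :
    (a * y) ^ 2 ^ n * (y ^ 2 ^ n)⁻¹ ∈ zo (closure (tset n P)) ∧
      (a ∈ zo (closure (tset n P)) → (a * y) ^ 2 ^ n * (y ^ 2 ^ n)⁻¹ = 1) := by
  have hc := tset_le_cz (P := P) hρ h
  have hk' := isPGroup_subgroup_iff.1 (isPGroup_sup_zpowers hP hy hk) _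
    (mul_mem (mem_sup_right (hA ha)) (mem_sup_left (mem_zpowers y)))
  have h1 : y ^ 2 ^ n ∈ closure (tset n P) := subset_closure ⟨y, hy, hk, rfl⟩
  have h2 : (a * y) ^ 2 ^ n ∈ closure (tset n P) :=
    subset_closure ⟨_, mul_mem (le_normalizer (hA ha)) hy, hk', rfl⟩
  have h3 : ∀ z : Y, (∃ k : ℕ, z ^ 2 ^ k = 1) → z ^ 2 ^ n * z ^ 2 ^ n = 1 := fun z hz => by
    rw [← pow_add, ← two_mul, ← pow_succ', h.pow_eq_one hρ hz]
  have key : ∀ g (hg : g ∈ closure (tset n P)), (∀ r R W (hR : Good r R) (hW : IsComp ρ R W)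
      (G M : Type u) [Group G] [Finite G] [AddCommGroup M] [Finite M] [DistribMulAction G M]
      (β : M →+ M →+ Additive Fˣ) (π : stab ρ W →* G) (q : Y → M), Model ρ W R r β π q →
      π ⟨g, hW.cz_le hR (hc hg)⟩ = 1) → g = 1 := fun g hg h4 =>
    eq_one_of_forall_kern hO hρ (isPGroup_subgroup_iff.1 hP _ (hA hg)) fun r R W hR hW => by
      have := hR.normal
      obtain ⟨G, M, _, _, _, _, _, β, π, q, hm⟩ := exists_model hR (hW.homog hR)
      exact (hm.ker _).1 (h4 r R W hR hW G M β π q hm)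
  have hcm : ∀ {a b : Y}, a ∈ closure (tset n P) → b ∈ closure (tset n P) →
      ⁅a, b⁆ ∈ closure (tset n P) := fun ha hb =>
    commutator_le_of_le le_rfl le_rfl (commutator_mem_commutator ha hb)
  refine ⟨?_, fun haz => key _ (mul_mem h2 (inv_mem h1)) fun r R W hR hW G M _ _ _ _ _ β π q hm => ?_⟩
  · rw [inv_eq_of_mul_eq_one_right (h3 y hk)]
    refine ⟨mul_mem h2 h1, ?_, ?_⟩
    · rw [centralizer_closure]
      intro σ hσ
      rw [← commutatorElement_eq_one_iff_mul_comm]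
      refine key _ (hcm (subset_closure hσ) (mul_mem h2 h1))
        fun r R W hR hW G M _ _ _ _ _ β π q hm => ?_
      have h4 := (hm.steps hρ h hR hW hP hA hy hk ha (t := ⟨_, hW.cz_le hR (hc h1)⟩)
        (t' := ⟨_, hW.cz_le hR (hc h2)⟩) rfl rfl).1.2 ⟨σ, hW.cz_le hR (hc (subset_closure hσ))⟩ hσ
      rwa [← map_mul, ← commutatorElement_eq_one_iff_commute, ← map_commutatorElement] at h4
    · have h4 : Commute ((a * y) ^ 2 ^ n) (y ^ 2 ^ n) := by
        rw [← commutatorElement_eq_one_iff_commute]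
        refine key _ (hcm h2 h1) fun r R W hR hW G M _ _ _ _ _ β π q hm => ?_
        have h4 := (hm.steps hρ h hR hW hP hA hy hk ha (t := ⟨_, hW.cz_le hR (hc h1)⟩)
          (t' := ⟨_, hW.cz_le hR (hc h2)⟩) rfl rfl).1.1
        rwa [← commutatorElement_eq_one_iff_commute, ← map_commutatorElement] at h4
      rw [h4.symm.mul_mul_mul_comm, h3 y hk, h3 _ hk', one_mul]
  · have h4 := (hm.steps hρ h hR hW hP hA hy hk ha (t := ⟨_, hW.cz_le hR (hc h1)⟩)
      (t' := ⟨_, hW.cz_le hR (hc h2)⟩) rfl rfl).2 haz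
    rwa [← mul_inv_eq_one, ← map_inv, ← map_mul] at h4

end Rep

theorem plen_of_hb (l : ℕ) : ∀ {Y : Type u} [Group Y] [Finite Y] [Group.IsSolvable Y]
    {V : Type u} [AddCommGroup V] [Module (ZMod 2) V] [FiniteDimensional (ZMod 2) V]
    (ρ : Representation (ZMod 2) Y V), pCore 2 Y = ⊥ → (∀ y, ρ y = 1 → y = 1) →
    HB ρ (l + 1) → PLengthLE 2 l Y := by
  induction l with
  | zero =>
    intro Y _ _ _ V _ _ _ ρ _ hρ h
    refine plen_zero_iff.2 (PExp.coprime fun x hx => ?_)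
    have h1 := h x hx
    rw [pow_zero, pow_one]
    refine hρ x ?_
    rw [zero_add, pow_one, sum_range_succ, sum_range_one, pow_zero, pow_one, map_one,
      add_eq_zero_iff_neg_eq] at h1
    rw [← h1, neg_eq_iff_add_eq_zero, ← two_smul (ZMod 2), show (2 : ZMod 2) = 0 from rfl, zero_smul]
  | succ l ih =>
    intro Y _ _ _ V _ _ _ ρ hO hρ h
    obtain ⟨X, _, _, f, P, hf⟩ := exists_red Y
    have hρ' : ∀ y, baseChangeRep (AlgebraicClosure (ZMod 2)) ρ y = 1 → y = 1 :=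
      fun y hy => hρ y ((baseChangeRep_eq_one_iff _ ρ).1 hy)
    have h' : HB (baseChangeRep (AlgebraicClosure (ZMod 2)) ρ) (l + 1 + 1) := fun y hy =>
      (rankDom_baseChangeRep _ ρ).sum_eq_zero _ _ (h y hy)
    have hA := tset_le_of_red hO hρ' h' hf
    have := hf.normal_map (normalizer_le_tset (l + 1) P)
    have := hf.normal_map ((normalizer_le_tset (l + 1) P).trans (normalizer_le_zo _))
    have := Group.isSolvable_of_surjective hf.surj
    have := elem_finiteDimensional hf.elem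
    obtain ⟨V', _, _, _, σ, hσ, hσ'⟩ := exists_hb (n := l + 1) PSolv.pCore_quotient
      (quotRep_faithful hf.elem hf.cent) (sub_invariant hf.elem ((closure (tset (l + 1) P)).map f))
      (sub_invariant hf.elem ((zo (closure (tset (l + 1) P))).map f)) fun x hx => by
        obtain ⟨S, hS, hPS, hSP, e⟩ := hf.exists_lift (isPGroup_comap_mk'
          (isPGroup_zpowers_iff.2 hx)) (le_comap_mk' _ _)
        obtain ⟨x, rfl⟩ := QuotientGroup.mk_surjective x
        obtain ⟨y, hy, rfl⟩ : x ∈ S.map f := by rw [e]; exact mem_zpowers _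
        have hk := isPGroup_subgroup_iff.1 hS y hy
        have h1 : ∀ (v : ElemMod hf.elem) (a : Y), f a = v.toG → ((∑ i ∈ range (2 ^ (l + 1)),
            quotRep hf.elem ((f y : X ⧸ pCore 2 X) ^ i)) v).toG =
            f ((a * y) ^ 2 ^ (l + 1) * (y ^ 2 ^ (l + 1))⁻¹) := fun v a ha => by
          simp only [map_mul, map_pow, map_inv, ha, quotRep_mk, mul_pow_eq, mul_inv_cancel_right]
        refine ⟨fun v => ?_, fun v ⟨a, ha, e⟩ => ?_, fun v ⟨a, ha, e⟩ => ?_⟩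
        · obtain ⟨a, ha, e⟩ : v.toG ∈ P.map f := hf.map_eq.ge v.toG_mem
          rw [ElemMod.mem_sub, h1 v a e]
          exact mem_map_of_mem f (mul_mem (subset_closure ⟨_, hSP (mul_mem (hPS ha) hy),
            isPGroup_subgroup_iff.1 hS _ (mul_mem (hPS ha) hy), rfl⟩)
            (inv_mem (subset_closure ⟨y, hSP hy, hk, rfl⟩)))
        · rw [ElemMod.mem_sub, h1 v a e]
          exact mem_map_of_mem f (steps hO hρ' h' hf.pgrp hA (hSP hy) hk ha).1
        · rw [← ElemMod.toG_eq_one, h1 v a e, (steps hO hρ' h' hf.pgrp hA (hSP hy) hk ha.1).2 ha,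
            map_one]
    exact plen_succ_of_reduction hf.surj hf.comap_eq (ih σ PSolv.pCore_quotient hσ hσ')

theorem plen_of_pExp {G : Type u} [Group G] [Finite G] [Group.IsSolvable G] {e : ℕ}
    (h : PExp 2 e G) : PLengthLE 2 e G := by
  cases e with
  | zero => exact plen_zero_iff.2 h.coprime
  | succ l =>
    obtain ⟨X, _, _, f, P, hf⟩ := exists_red G
    have := Group.isSolvable_of_surjective hf.surj
    have := elem_finiteDimensional hf.elem
    refine plen_succ_of_reduction hf.surj hf.comap_eq (plen_of_hb l (quotRep hf.elem)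
      PSolv.pCore_quotient (quotRep_faithful hf.elem hf.cent) fun y hy => ?_)
    obtain ⟨x, rfl, hx⟩ := exists_pElem_lift (QuotientGroup.mk'_surjective _) hy
    simpa only [map_pow, QuotientGroup.mk'_apply, quotRep_mk] using
      (h.of_surjective hf.surj).sum_eq_zero hf.elem hx

end CfsgLib.TwoLen
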