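import Mathlib
import Cfsg.Agent.Lib.FT.OddOrder
import Cfsg.Agent.Lib.PLocal.PSolvable

/-!
A finite `2`-solvable group is solvable.
-/

set_option autoImplicit false

namespace CfsgLib.TwoLen

open Subgroup Cfsg CfsgLib.PLocal

universe u

theorem isSolvable_of_two_aux (n : ℕ) : ∀ (G : Type u) [Group G] [Finite G], Nat.card G = n →
    IsPSolvable 2 G → Group.IsSolvable G := by
  induction n using Nat.strong_induction_on with
  | _ n ih =>
    intro G _ _ hn hG
    rcases subsingleton_or_nontrivial G with h | h
    · infer_instance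
    obtain ⟨K, hK, h1, -, h2⟩ := PSolv.exists_normal_le hG ⊤ top_ne_bot
    have : Group.IsSolvable K := h2.elim (fun h2 => by have := h2.isNilpotent; infer_instance)
      fun h2 => FT.odd_order_solvable (Nat.coprime_two_right.1 h2)
    have : Group.IsSolvable (G ⧸ K) := ih _ (by
      rw [← hn, card_eq_card_quotient_mul_card_subgroup K]
      exact lt_mul_of_one_lt_right Nat.card_pos ((one_lt_card_iff_ne_bot K).2 h1)) _ rfl
      (PSolv.quotient hG K)
    exact Group.isSolvable_of_ker_le_range K.subtype (QuotientGroup.mk' K) (by simp)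

theorem isSolvable_of_two {G : Type u} [Group G] [Finite G] (hG : IsPSolvable 2 G) :
    Group.IsSolvable G := isSolvable_of_two_aux _ G rfl hG

end CfsgLib.TwoLen
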